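import Mathlib
import Cfsg.Agent.H86.Basic
import Cfsg.Agent.H87.PiClasses
import Cfsg.Agent.H33.NilpotentHall
import Cfsg.Agent.H44.Codegree
import Cfsg.Agent.H26.CharLinear

/-! Counting classes of `π`-elements: recursion along a Sylow subgroup, and orbit bounds. -/

set_option autoImplicit false
open scoped Pointwise

namespace Cfsg.Agent.H6.PiClasses

universe u
variable {G : Type u} [Group G] [Finite G]

/-- The class consists of elements whose order only involves primes of `s`. -/
def IsSClass {X : Type*} [Group X] (s : Finset ℕ) (C : ConjClasses X) : Prop :=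
  ∀ g : X, ConjClasses.mk g = C → ∀ q : ℕ, q.Prime → q ∣ orderOf g → q ∈ s

/-- The number of such classes. -/
noncomputable def kcount (s : Finset ℕ) (X : Type*) [Group X] : ℕ :=
  Nat.card {C : ConjClasses X // IsSClass s C}

/-- The `s`-part of the order. -/
noncomputable def sPart (s : Finset ℕ) (X : Type*) [Group X] : ℕ :=
  ∏ r ∈ s, r ^ (Nat.card X).factorization r

theorem kcount_le_sPart (s : Finset ℕ) (hs : ∀ r ∈ s, r.Prime) :
    kcount s G ≤ sPart s G := H87.card_supported_classes_le s hs G

theorem isSClass_mk {s : Finset ℕ} {g : G}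
    (h : ∀ q : ℕ, q.Prime → q ∣ orderOf g → q ∈ s) : IsSClass s (ConjClasses.mk g) := by
  intro g' hg' q hq hd
  obtain ⟨c, rfl⟩ := isConj_iff.1 (ConjClasses.mk_eq_mk_iff_isConj.1 hg'.symm)
  rw [← MulAut.conj_apply, MulEquiv.orderOf_eq] at hd
  exact h q hq hd

theorem kcount_insert_le {q : ℕ} [Fact q.Prime] (t : Finset ℕ) (Q : Sylow q G)
    (Y : Finset G) (hY : ∀ x ∈ (Q : Subgroup G), ∃ y ∈ Y, IsConj x y) :
    kcount (insert q t) G ≤
      ∑ y ∈ Y, kcount t (Subgroup.centralizer ({y} : Set G)) := by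
  classical
  let Φ : (Σ y : Y, ConjClasses (Subgroup.centralizer ({(y : G)} : Set G))) → ConjClasses G :=
    fun σ => Quotient.liftOn σ.2
      (fun w => ConjClasses.mk ((σ.1 : G) * (w : G)))
      (fun a b hab => by
        obtain ⟨c, hc⟩ := isConj_iff.1 hab
        rw [ConjClasses.mk_eq_mk_iff_isConj, isConj_iff]
        refine ⟨c, ?_⟩
        have hcy : (c : G) * (σ.1 : G) = (σ.1 : G) * (c : G) :=
          Subgroup.mem_centralizer_singleton_iff.1 c.2
        have hc' : (c : G) * a * (c : G)⁻¹ = b := congrArg Subtype.val hc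
        calc (c : G) * ((σ.1 : G) * a) * (c : G)⁻¹
            = ((c : G) * (σ.1 : G)) * a * (c : G)⁻¹ := by group
          _ = (σ.1 : G) * ((c : G) * a * (c : G)⁻¹) := by rw [hcy]; group
          _ = _ := by rw [hc'])
  let D := (Σ y : Y, {C : ConjClasses (Subgroup.centralizer ({(y : G)} : Set G)) // IsSClass t C})
  have hsur : ∀ C : {C : ConjClasses G // IsSClass (insert q t) C},
      ∃ d : D, Φ ⟨d.1, d.2.1⟩ = C.1 := by
    rintro ⟨C, hC⟩
    obtain ⟨g, rfl⟩ := ConjClasses.exists_rep C
    obtain ⟨y, z, hy, hz, hyz, ⟨k, hk⟩, hzp⟩ :=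
      H86.exists_pPart_mul_pPrimePart g (isOfFinOrder_of_finite g) (Fact.out : q.Prime)
    have hY' : IsPGroup q (Subgroup.zpowers y) := IsPGroup.of_card (by rw [Nat.card_zpowers, hk])
    obtain ⟨R, hR⟩ := hY'.exists_le_sylow
    obtain ⟨c, hc⟩ := MulAction.exists_smul_eq G Q R
    have hyQ : c⁻¹ * y * c ∈ (Q : Subgroup G) := by
      have h : y ∈ MulAut.conj c • (Q : Subgroup G) := by
        rw [← hc] at hR; exact hR (Subgroup.mem_zpowers y)
      rw [Subgroup.mem_pointwise_smul_iff_inv_smul_mem] at h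
      simpa [MulAut.smul_def] using h
    obtain ⟨y', hy'Y, hconj⟩ := hY _ hyQ
    obtain ⟨e, he⟩ := isConj_iff.1 hconj
    have hcomm : Commute y z := by
      obtain ⟨i, rfl⟩ := hy
      obtain ⟨j, rfl⟩ := hz
      exact (Commute.refl g).zpow_zpow i j
    have hy' : (e * c⁻¹) * y * (e * c⁻¹)⁻¹ = y' := by rw [← he]; group
    have hwC : (e * c⁻¹) * z * (e * c⁻¹)⁻¹ ∈ Subgroup.centralizer ({y'} : Set G) := by
      rw [Subgroup.mem_centralizer_singleton_iff, ← hy']
      calc (e * c⁻¹) * z * (e * c⁻¹)⁻¹ * ((e * c⁻¹) * y * (e * c⁻¹)⁻¹)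
          = (e * c⁻¹) * (z * y) * (e * c⁻¹)⁻¹ := by group
        _ = _ := by rw [← hcomm.eq]; group
    refine ⟨⟨⟨y', hy'Y⟩, ConjClasses.mk ⟨_, hwC⟩, isSClass_mk fun r hr hd => ?_⟩, ?_⟩
    · rw [← Subgroup.orderOf_coe] at hd
      replace hd : r ∣ orderOf (MulAut.conj (e * c⁻¹) z) := hd
      rw [MulEquiv.orderOf_eq] at hd
      have hrg : r ∣ orderOf g := hd.trans (orderOf_dvd_of_mem_zpowers hz)
      rcases Finset.mem_insert.1 (hC g rfl r hr hrg) with rfl | h
      · exact absurd (Nat.eq_one_of_dvd_coprimes hzp hd dvd_rfl) hr.ne_one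
      · exact h
    · show ConjClasses.mk (y' * ((e * c⁻¹) * z * (e * c⁻¹)⁻¹)) = ConjClasses.mk g
      rw [ConjClasses.mk_eq_mk_iff_isConj, isConj_iff]
      refine ⟨(e * c⁻¹)⁻¹, ?_⟩
      rw [← hy', ← hyz]; group
  choose f hf using hsur
  have hinj : Function.Injective f := fun a b h => Subtype.ext (by rw [← hf a, ← hf b, h])
  refine (Nat.card_le_card_of_injective f hinj).trans (le_of_eq ?_)
  rw [Nat.card_sigma]
  exact Finset.sum_coe_sort Y
    (fun y => kcount t (Subgroup.centralizer ({y} : Set G)))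

/-- If every element outside `F` shares its image with `n` elements outside `F`, the image is
small. -/
theorem card_image_bound {α β : Type*} [DecidableEq α] [DecidableEq β] (f : α → β) (S F : Finset α)
    (n : ℕ) (hFS : F ⊆ S)
    (h : ∀ x ∈ S \ F, n ≤ ((S \ F).filter fun y => f y = f x).card) :
    n * (S.image f).card + F.card ≤ S.card + n * F.card := by
  have h1 : (S.image f).card ≤ F.card + ((S \ F).image f).card := by
    calc (S.image f).card = (F.image f ∪ (S \ F).image f).card := by
          rw [← Finset.image_union, Finset.union_sdiff_of_subset hFS]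
      _ ≤ (F.image f).card + ((S \ F).image f).card := Finset.card_union_le _ _
      _ ≤ _ := Nat.add_le_add_right Finset.card_image_le _
  have h2 : n * ((S \ F).image f).card ≤ (S \ F).card :=
    Finset.mul_card_image_le_card _ n fun b hb => by
      obtain ⟨x, hx, rfl⟩ := Finset.mem_image.1 hb
      exact h x hx
  have h3 := Finset.card_sdiff_add_card_eq_card hFS
  nlinarith

/-- The classes met by a subgroup `R` on which `U` acts by conjugation. -/
theorem card_range_bound (R U : Subgroup G) (hUR : U ≤ Subgroup.normalizer (R : Set G)) {β : Type*}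
    (f : R → β) (hf : ∀ x y : R, ∀ u ∈ U, u * (x : G) * u⁻¹ = y → f x = f y) (n : ℕ)
    (hn : ∀ d : ℕ, d ∣ Nat.card U → d ≠ 1 → n ≤ d) :
    n * (Set.range f).ncard + Nat.card ↥(R ⊓ Subgroup.centralizer (U : Set G)) ≤
      Nat.card R + n * Nat.card ↥(R ⊓ Subgroup.centralizer (U : Set G)) := by
  classical
  have := Fintype.ofFinite R
  set F : Finset R := Finset.univ.filter fun x : R => (x : G) ∈ Subgroup.centralizer (U : Set G)
  have hFc : F.card = Nat.card ↥(R ⊓ Subgroup.centralizer (U : Set G)) := by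
    rw [← Fintype.card_subtype, ← Nat.card_eq_fintype_card]
    exact Nat.card_congr
      { toFun := fun x => ⟨x.1, x.1.2, x.2⟩
        invFun := fun x => ⟨⟨x, x.2.1⟩, x.2.2⟩
        left_inv := fun x => rfl
        right_inv := fun x => rfl }
  have hr : (Set.range f).ncard = (Finset.univ.image f).card := by
    rw [← Set.ncard_coe_finset]; simp
  rw [← hFc, hr, Nat.card_eq_fintype_card, ← Finset.card_univ]
  refine card_image_bound f _ F n (Finset.subset_univ _) fun x hx => ?_
  simp only [Finset.mem_sdiff, Finset.mem_univ, true_and, F, Finset.mem_filter] at hx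
  have hmem : ∀ u : U, (u : G) * x * (u : G)⁻¹ ∈ R := fun u =>
    (Subgroup.mem_normalizer_iff.1 (hUR u.2) _).1 x.2
  set St := (Subgroup.centralizer ({(x : G)} : Set G)).subgroupOf U
  have hidx : St.index ∣ Nat.card U := Subgroup.index_dvd_card _
  have hne : St.index ≠ 1 := by
    rw [Ne, Subgroup.index_eq_one, Subgroup.subgroupOf_eq_top]
    intro hle
    apply hx
    rw [Subgroup.mem_centralizer_iff]
    intro u hu
    exact Subgroup.mem_centralizer_singleton_iff.1 (hle hu)
  refine (hn _ hidx hne).trans ?_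
  rw [Subgroup.index, ← Fintype.card_coe, ← Nat.card_eq_fintype_card]
  let φ : U ⧸ St → {y // y ∈ (Finset.univ \ F).filter fun y => f y = f x} := fun a =>
    Quotient.liftOn a (fun u => ⟨⟨_, hmem u⟩, by
      simp only [Finset.mem_filter, Finset.mem_sdiff, Finset.mem_univ, true_and, F]
      refine ⟨fun hc => hx ?_, (hf x ⟨_, hmem u⟩ u u.2 rfl).symm⟩
      have h1 : (x : G) = (u : G)⁻¹ * ((u : G) * x * (u : G)⁻¹) * u := by group
      have h2 := Subgroup.mem_centralizer_iff.1 hc u u.2
      have h3 : (x : G) = (u : G) * x * (u : G)⁻¹ := by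
        calc (x : G) = (u : G)⁻¹ * (((u : G) * x * (u : G)⁻¹) * u) := by group
          _ = (u : G)⁻¹ * ((u : G) * ((u : G) * x * (u : G)⁻¹)) := by rw [h2]
          _ = _ := by group
      rwa [h3]⟩) (by
      intro a b hab
      replace hab := QuotientGroup.leftRel_apply.1 hab
      apply Subtype.ext
      apply Subtype.ext
      show (a : G) * x * (a : G)⁻¹ = (b : G) * x * (b : G)⁻¹
      have hm : ((a⁻¹ * b : U) : G) * x = x * ((a⁻¹ * b : U) : G) :=
        Subgroup.mem_centralizer_singleton_iff.1 hab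
      push_cast at hm
      calc (a : G) * x * (a : G)⁻¹ = (a : G) * (x * ((a : G)⁻¹ * b)) * (b : G)⁻¹ := by group
        _ = (a : G) * ((a : G)⁻¹ * b * x) * (b : G)⁻¹ := by rw [hm]
        _ = _ := by group)
  refine Nat.card_le_card_of_injective φ ?_
  intro a b
  induction a using Quotient.inductionOn with
  | h a =>
    induction b using Quotient.inductionOn with
    | h b =>
      intro hab
      have he : (a : G) * x * (a : G)⁻¹ = (b : G) * x * (b : G)⁻¹ :=
        congrArg Subtype.val (congrArg Subtype.val hab)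
      apply Quotient.sound
      change (QuotientGroup.leftRel St) a b
      rw [QuotientGroup.leftRel_apply]
      show ((a⁻¹ * b : U) : G) ∈ Subgroup.centralizer ({(x : G)} : Set G)
      rw [Subgroup.mem_centralizer_singleton_iff]
      push_cast
      calc (a : G)⁻¹ * b * x = (a : G)⁻¹ * ((b : G) * x * (b : G)⁻¹) * b := by group
        _ = (a : G)⁻¹ * ((a : G) * x * (a : G)⁻¹) * b := by rw [he]
        _ = _ := by group

/-- The classes met by a nonabelian `r`-group: at most `(1/r + 1/r^2 - 1/r^3)` of its order. -/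
theorem conjClasses_bound {r : ℕ} [Fact r.Prime] {R : Type*} [Group R] [Finite R]
    (hR : IsPGroup r R) (hna : ¬ IsMulCommutative R) :
    Nat.card (ConjClasses R) * r ^ 3 ≤ Nat.card R * (r ^ 2 + r - 1) := by
  classical
  have := Fintype.ofFinite R
  have hr : r.Prime := Fact.out
  set F : Finset R := Finset.univ.filter fun x : R => x ∈ Subgroup.center R
  have hFc : F.card = Nat.card (Subgroup.center R) := by
    rw [← Fintype.card_subtype, ← Nat.card_eq_fintype_card]
  have h1 : r * Nat.card (ConjClasses R) + Nat.card (Subgroup.center R) ≤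
      Nat.card R + r * Nat.card (Subgroup.center R) := by
    have hr' : Nat.card (ConjClasses R) = (Finset.univ.image (ConjClasses.mk : R → _)).card := by
      have := Fintype.ofFinite (ConjClasses R)
      rw [Finset.image_univ_of_surjective ConjClasses.mk_surjective, Finset.card_univ,
        Nat.card_eq_fintype_card]
    rw [← hFc, hr', Nat.card_eq_fintype_card, ← Finset.card_univ]
    refine card_image_bound _ _ F r (Finset.subset_univ _) fun x hx => ?_
    simp only [Finset.mem_sdiff, Finset.mem_univ, true_and, F, Finset.mem_filter] at hx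
    have h2 := H86.ncard_carrier_eq_index x
    obtain ⟨k, hk⟩ := hR.index (Subgroup.centralizer ({x} : Set R))
    have hk0 : k ≠ 0 := by
      rintro rfl
      rw [pow_zero, Subgroup.index_eq_one] at hk
      apply hx
      rw [Subgroup.mem_center_iff]
      intro g
      have : g ∈ Subgroup.centralizer ({x} : Set R) := hk ▸ Subgroup.mem_top g
      exact Subgroup.mem_centralizer_singleton_iff.1 this
    refine le_trans (Nat.le_self_pow hk0 r) (le_of_eq ?_)
    rw [← hk, ← h2, ← Set.ncard_coe_finset]
    congr 1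
    ext y
    simp only [Finset.coe_filter, Finset.mem_sdiff, Finset.mem_univ, true_and, F, Finset.mem_filter,
      Set.mem_setOf_eq, ConjClasses.mem_carrier_iff_mk_eq]
    refine ⟨fun h => ⟨fun hc => hx ?_, h⟩, fun h => h.2⟩
    obtain ⟨c, hc'⟩ := isConj_iff.1 (ConjClasses.mk_eq_mk_iff_isConj.1 h)
    have : x = c * y * c⁻¹ := hc'.symm
    rw [this, Subgroup.mem_center_iff.1 hc c, mul_inv_cancel_right]
    exact hc
  have h3 : r ^ 2 * Nat.card (Subgroup.center R) ≤ Nat.card R := by
    rw [← (Subgroup.center R).index_mul_card]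
    refine Nat.mul_le_mul_right _ ?_
    obtain ⟨k, hk⟩ := hR.index (Subgroup.center R)
    rw [hk]
    refine Nat.pow_le_pow_right hr.pos ?_
    by_contra hlt
    push Not at hlt
    apply hna
    have : IsCyclic (R ⧸ Subgroup.center R) := by
      interval_cases k
      · rw [pow_zero, Subgroup.index_eq_one] at hk
        have : Subsingleton (R ⧸ Subgroup.center R) := by
          refine (Nat.card_eq_one_iff_unique.1 ?_).1
          rw [← Subgroup.index, hk, Subgroup.index_top]
        exact isCyclic_of_subsingleton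
      · exact isCyclic_of_prime_card (p := r) (by rw [← Subgroup.index, hk, pow_one])
    exact ⟨⟨fun a b => commutative_of_cyclic_center_quotient (QuotientGroup.mk' (Subgroup.center R))
      (by simp [QuotientGroup.ker_mk']) a b⟩⟩
  have h1' := Nat.mul_le_mul_left (r ^ 2) h1
  obtain ⟨r', rfl⟩ : ∃ r', r = r' + 1 := ⟨r - 1, by have := hr.pos; omega⟩
  have h3' := Nat.mul_le_mul_left r' h3
  rw [show (r' + 1) ^ 2 + (r' + 1) - 1 = (r' + 1) ^ 2 + r' by omega]
  nlinarith

/-- A `p`-group with more than `|P|/p` classes has derived subgroup of order at most `p`. -/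
theorem card_commutator_le {p : ℕ} [Fact p.Prime] {P : Type*} [Group P] [Finite P]
    (hP : IsPGroup p P) (hk : Nat.card P < p * Nat.card (ConjClasses P)) :
    Nat.card (commutator P) ≤ p := by
  classical
  have := Fintype.ofFinite P
  have hp : p.Prime := Fact.out
  obtain ⟨j, hj⟩ := IsPGroup.iff_card.1 (hP.to_subgroup (commutator P))
  rcases le_or_gt j 1 with hj1 | hj2
  · rw [hj]
    exact (Nat.pow_le_pow_right hp.pos hj1).trans (pow_one p).le
  exfalso
  have hsum := H44.sum_charDegree_sq (G := P)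
  set L := Finset.univ.filter fun χ : Cfsg.IrrCharacter P => (χ : P → ℂ) 1 = 1
  have hL : L.card = (commutator P).index := by
    rw [← H26.card_linear_irr, Nat.card_eq_fintype_card, Fintype.card_subtype]
  have hk' : Nat.card (ConjClasses P) = L.card + (Finset.univ \ L).card := by
    rw [← H26.card_irr_eq_card_conjClasses, Nat.card_eq_fintype_card, ← Finset.card_univ,
      add_comm, Finset.card_sdiff_add_card_eq_card (Finset.subset_univ _)]
  have hdeg : ∀ χ ∈ L, Cfsg.charDegree (χ : P → ℂ) ^ 2 = 1 := by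
    intro χ hχ
    have h1 := (Finset.mem_filter.1 hχ).2
    have h2 := H44.cast_charDegree χ
    rw [h1] at h2
    have : Cfsg.charDegree (χ : P → ℂ) = 1 := by exact_mod_cast h2
    rw [this, one_pow]
  have hbig : ∀ χ ∈ Finset.univ \ L, p ^ 2 ≤ Cfsg.charDegree (χ : P → ℂ) ^ 2 := by
    intro χ hχ
    refine Nat.pow_le_pow_left ?_ 2
    obtain ⟨n, hn⟩ := IsPGroup.iff_card.1 hP
    obtain ⟨i, -, hi⟩ := (Nat.dvd_prime_pow hp).1 (hn ▸ H44.charDegree_dvd_card χ)
    rcases Nat.eq_zero_or_pos i with h | h
    · exfalso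
      rw [h, pow_zero] at hi
      refine (Finset.mem_sdiff.1 hχ).2 (Finset.mem_filter.2 ⟨Finset.mem_univ _, ?_⟩)
      rw [← H44.cast_charDegree χ, hi, Nat.cast_one]
    · rw [hi]; exact Nat.le_self_pow h.ne' p
  rw [← Finset.sum_sdiff (Finset.subset_univ L), Finset.sum_congr rfl hdeg] at hsum
  have h2 := Finset.card_nsmul_le_sum (Finset.univ \ L)
    (fun χ : Cfsg.IrrCharacter P => Cfsg.charDegree (χ : P → ℂ) ^ 2) (p ^ 2) hbig
  simp only [Finset.sum_const, smul_eq_mul, mul_one] at hsum h2
  have h4 : p ^ 2 * L.card ≤ Nat.card P := by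
    rw [hL, ← (commutator P).index_mul_card, mul_comm, hj]
    exact Nat.mul_le_mul_left _ (Nat.pow_le_pow_right hp.pos hj2)
  rw [hk'] at hk
  set T := (Finset.univ \ L).card
  have h5 : p ^ 2 * (L.card + T) ≤ 2 * Nat.card P := by nlinarith
  have h6 : p * (p * (L.card + T)) ≤ p * Nat.card P := by
    calc p * (p * (L.card + T)) = p ^ 2 * (L.card + T) := by ring
      _ ≤ 2 * Nat.card P := h5
      _ ≤ _ := Nat.mul_le_mul_right _ hp.two_le
  have := Nat.le_of_mul_le_mul_left h6 hp.pos
  omega

end Cfsg.Agent.H6.PiClasses
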