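import Cfsg.Agent.H6.PiClasses.Main

/-! Consequences for the nilpotent Hall subgroup. -/

set_option autoImplicit false
open scoped Pointwise commutatorElement

namespace Cfsg.Agent.H6.PiClasses

universe u
variable {G : Type u} [Group G] [Finite G]

/-- In a nilpotent group whose Sylow subgroups are abelian modulo a normal subgroup `N`,
all commutators lie in `N`. -/
theorem commutator_le_of_sylow {H : Type*} [Group H] [Finite H] (hH : Group.IsNilpotent H)
    (N : Subgroup H) [N.Normal]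
    (h : ∀ (r : ℕ) [Fact r.Prime] (R : Sylow r H), ∀ x ∈ (R : Subgroup H), ∀ y ∈ (R : Subgroup H),
      x * y * x⁻¹ * y⁻¹ ∈ N) : commutator H ≤ N := by
  have hN : ∀ x y : H, Commute (x : H ⧸ N) (y : H ⧸ N) → x * y * x⁻¹ * y⁻¹ ∈ N := fun x y e => by
    rw [← QuotientGroup.eq_one_iff]
    show (x : H ⧸ N) * y * (x : H ⧸ N)⁻¹ * (y : H ⧸ N)⁻¹ = 1
    rw [e.eq]; group
  have key : ∀ a b : H, ∀ (r k : ℕ), r.Prime → orderOf a = r ^ k → ∀ (s l : ℕ), s.Prime →
      orderOf b = s ^ l → Commute (a : H ⧸ N) (b : H ⧸ N) := by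
    intro a b r k hr ha s l hs hb
    haveI : Fact r.Prime := ⟨hr⟩
    by_cases hrs : s = r
    · subst hrs
      obtain ⟨R, hR⟩ := (IsPGroup.of_card (n := k)
        (show Nat.card (Subgroup.zpowers a) = s ^ k by rw [Nat.card_zpowers, ha])).exists_le_sylow
      obtain ⟨S, hS⟩ := (IsPGroup.of_card (n := l)
        (show Nat.card (Subgroup.zpowers b) = s ^ l by rw [Nat.card_zpowers, hb])).exists_le_sylow
      obtain ⟨g, hg⟩ := MulAction.exists_smul_eq H R S
      have hn : (R : Subgroup H).Normal := ((Group.isNilpotent_of_finite_tfae (G := H)).out 0 3 rfl rfl).1 hH s ⟨hr⟩ R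
      rw [Sylow.smul_eq_of_normal] at hg
      subst hg
      have h1 := h s R a (hR (Subgroup.mem_zpowers a)) b (hS (Subgroup.mem_zpowers b))
      rw [← QuotientGroup.eq_one_iff] at h1
      replace h1 : (a : H ⧸ N) * b * (a : H ⧸ N)⁻¹ * (b : H ⧸ N)⁻¹ = 1 := h1
      exact mul_inv_eq_iff_eq_mul.1 (mul_inv_eq_one.1 h1)
    · exact (H33.commute_of_mem_nilpotent (A := (⊤ : Subgroup H))
        (Group.nilpotent_of_mulEquiv Subgroup.topEquiv.symm) (Subgroup.mem_top a) (Subgroup.mem_top b)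
        ha hs hrs hb).map (QuotientGroup.mk' N)
  rw [commutator_def, Subgroup.commutator_le]
  intro x _ y _
  refine hN x y ?_
  have hx : ∀ b : H, ∀ (s l : ℕ), s.Prime → orderOf b = s ^ l → Commute (x : H ⧸ N) (b : H ⧸ N) := by
    intro b s l hs hb
    exact (Subgroup.mem_centralizer_singleton_iff.1 (H33.mem_of_primePow_parts
      ((Subgroup.centralizer ({(b : H ⧸ N)} : Set (H ⧸ N))).comap (QuotientGroup.mk' N)) x
      (isOfFinOrder_of_finite x) fun a _ r k hr ha => Subgroup.mem_centralizer_singleton_iff.2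
        (key a b r k hr ha s l hs hb).eq))
  exact (Subgroup.mem_centralizer_singleton_iff.1 (H33.mem_of_primePow_parts
    ((Subgroup.centralizer ({(x : H ⧸ N)} : Set (H ⧸ N))).comap (QuotientGroup.mk' N)) y
    (isOfFinOrder_of_finite y) fun b _ s l hs hb => Subgroup.mem_centralizer_singleton_iff.2
      (hx b s l hs hb).symm.eq)).symm

theorem comm_bound {p r : ℕ} (hp : 2 ≤ p) (hpr : p ≤ r) :
    p ^ 3 * (r ^ 2 + r) + r ^ 3 ≤ r ^ 3 * (p ^ 2 + p) + p ^ 3 := by
  obtain ⟨d, rfl⟩ : ∃ d, r = p + d := ⟨r - p, by omega⟩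
  obtain ⟨p', rfl⟩ : ∃ p', p = p' + 2 := ⟨p - 2, by omega⟩
  ring_nf
  nlinarith [Nat.zero_le (p' * d), Nat.zero_le (p' * p' * d), Nat.zero_le (d * d), Nat.zero_le (d * d * d)]

theorem setup (π : Set ℕ) (hπ : ∀ q ∈ π, q.Prime) (p : ℕ) (hp : p ∈ π) (hmin : ∀ q ∈ π, p ≤ q)
    (m : ℕ) (hm : m ∣ Nat.card G) (hmπ : ∀ q : ℕ, q.Prime → q ∣ m → q ∈ π)
    (hm' : ∀ q ∈ π, ¬ q ∣ Nat.card G / m)
    (k : ℕ) (hk : k = Nat.card {C : ConjClasses G // ∀ q : ℕ, q.Prime → (∃ g : G, ConjClasses.mk g = C ∧ q ∣ orderOf g) → q ∈ π})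
    (hmany : m < p * k) :
    ∃ H : Subgroup G, Nat.card H = m ∧ Group.IsNilpotent H ∧
      ∀ (r : ℕ) [Fact r.Prime] (R : Sylow r H),
        k * Nat.card (R : Subgroup H) ≤ Nat.card (ConjClasses (R : Subgroup H)) * m := by
  classical
  have hm0 : m ≠ 0 := fun e => (Nat.card_pos (α := G)).ne' (Nat.eq_zero_of_zero_dvd (e ▸ hm))
  set s := m.primeFactors
  have hs : ∀ r ∈ s, r.Prime := fun r hr => Nat.prime_of_mem_primeFactors hr
  have hdiv : m * (Nat.card G / m) = Nat.card G := Nat.mul_div_cancel' hm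
  have hq0 : Nat.card G / m ≠ 0 := fun e => (Nat.card_pos (α := G)).ne' (by rw [← hdiv, e, mul_zero])
  have hsp : sPart s G = m := by
    rw [sPart, Finset.prod_congr rfl fun r hr => ?_]
    · exact Nat.prod_factorization_pow_eq_self hm0
    · congr 1
      conv_lhs => rw [← hdiv]
      rw [Nat.factorization_mul hm0 hq0, Finsupp.coe_add, Pi.add_apply,
        Nat.factorization_eq_zero_of_not_dvd
          (hm' r (hmπ r (hs r hr) (Nat.dvd_of_mem_primeFactors hr))), add_zero]
  have hkk : k ≤ kcount s G := by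
    rw [hk]
    refine Nat.card_le_card_of_injective (fun C => ⟨C.1, fun g hg q hq hd => ?_⟩)
      (fun a b h => Subtype.ext (Subtype.mk.inj h))
    have hqπ := C.2 q hq ⟨g, hg, hd⟩
    refine Nat.mem_primeFactors.2 ⟨hq, ?_, hm0⟩
    rcases (Nat.Prime.dvd_mul hq).1 (hdiv.symm ▸ (hd.trans (orderOf_dvd_natCard g)) :
      q ∣ m * (Nat.card G / m)) with h | h
    · exact h
    · exact absurd h (hm' q hqπ)
  obtain ⟨H, hH, hHn⟩ := exists_nilpotent_hall s hs p (hπ p hp).two_le
    (fun r hr => hmin r (hmπ r (hs r hr) (Nat.dvd_of_mem_primeFactors hr))) G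
    (by rw [hsp]; exact lt_of_lt_of_le hmany (Nat.mul_le_mul_left p hkk))
  refine ⟨H, by rw [hH, hsp], hHn, fun r _ R => ?_⟩
  have h1 : kcount s G ≤ kcount s H := by
    let f : {c : ConjClasses H // IsSClass s c} → ConjClasses G := fun c =>
      Quotient.liftOn c.1 (fun x => ConjClasses.mk (x : G)) fun a b h =>
        ConjClasses.mk_eq_mk_iff_isConj.2 (by
          obtain ⟨c, hc⟩ := isConj_iff.1 h
          exact isConj_iff.2 ⟨c, congrArg Subtype.val hc⟩)
    have hsur : ∀ C : {C : ConjClasses G // IsSClass s C}, ∃ c, f c = C.1 := by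
      rintro ⟨C, hC⟩
      obtain ⟨g, rfl⟩ := ConjClasses.exists_rep C
      obtain ⟨x, hx⟩ := exists_conj_le hs hH hHn (Subgroup.zpowers g)
        (fun q hq hd => hC g rfl q hq (by rwa [Nat.card_zpowers] at hd))
      have h1 := hx (Subgroup.mem_zpowers g)
      rw [H19.mem_conj_smul] at h1
      refine ⟨⟨ConjClasses.mk ⟨_, h1⟩, isSClass_mk fun q hq hd => ?_⟩, ?_⟩
      · refine hC g rfl q hq ?_
        rw [← Subgroup.orderOf_coe] at hd
        replace hd : q ∣ orderOf (MulAut.conj x⁻¹ g) := by simpa [mul_assoc] using hd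
        rwa [MulEquiv.orderOf_eq] at hd
      · exact ConjClasses.mk_eq_mk_iff_isConj.2 (isConj_iff.2 ⟨x, by group⟩)
    choose g hg using hsur
    exact Nat.card_le_card_of_injective g fun a b h => Subtype.ext (by rw [← hg a, ← hg b, h])
  by_cases hrs : r ∈ s
  · have h2 := kcount_insert_le_classCount (s.erase r) (fun i hi => hs i (Finset.mem_of_mem_erase hi)) R
    rw [Finset.insert_erase hrs] at h2
    have h3 : Nat.card (R : Subgroup H) * sPart (s.erase r) H = m := by
      rw [R.card_eq_multiplicity, ← sPart_insert (Finset.notMem_erase r s), Finset.insert_erase hrs,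
        sPart_eq_of_dvd_card hs H (hH ▸ dvd_rfl), hsp]
    have h4 := h2.trans (Nat.mul_le_mul_right _ (classCount_le_conjClasses (R : Subgroup H)))
    have h5 := Nat.mul_le_mul_right (Nat.card (R : Subgroup H)) (hkk.trans (h1.trans h4))
    rw [← h3]
    exact h5.trans (le_of_eq (by ring))
  · have hR : Nat.card (R : Subgroup H) = 1 := by
      rw [R.card_eq_multiplicity, hH, factorization_sPart hs, if_neg hrs, pow_zero]
    rw [hR, mul_one]
    refine le_trans (hkk.trans ((kcount_le_sPart s hs).trans (le_of_eq hsp))) ?_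
    exact Nat.le_mul_of_pos_left _ Nat.card_pos

theorem nilpotent_hall_result (π : Set ℕ) (hπ : ∀ q ∈ π, q.Prime) (p : ℕ) (hp : p ∈ π) (hmin : ∀ q ∈ π, p ≤ q)
    (m : ℕ) (hm : m ∣ Nat.card G) (hmπ : ∀ q : ℕ, q.Prime → q ∣ m → q ∈ π)
    (hm' : ∀ q ∈ π, ¬ q ∣ Nat.card G / m)
    (k : ℕ) (hk : k = Nat.card {C : ConjClasses G // ∀ q : ℕ, q.Prime → (∃ g : G, ConjClasses.mk g = C ∧ q ∣ orderOf g) → q ∈ π})
    (hmany : m < p * k) :
    ∃ H : Subgroup G, Nat.card H = m ∧ Group.IsNilpotent H ∧ Nat.card (commutator H) ≤ p := by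
  classical
  obtain ⟨H, hHc, hHn, hR⟩ := setup π hπ p hp hmin m hm hmπ hm' k hk hmany
  refine ⟨H, hHc, hHn, ?_⟩
  haveI : Fact p.Prime := ⟨hπ p hp⟩
  obtain ⟨P⟩ : Nonempty (Sylow p H) := inferInstance
  have hclass : ∀ (r : ℕ) [Fact r.Prime] (R : Sylow r H),
      Nat.card (R : Subgroup H) < p * Nat.card (ConjClasses (R : Subgroup H)) := by
    intro r _ R
    by_contra hle
    push Not at hle
    have h1 := Nat.mul_le_mul_left p (hR r R)
    have h2 := Nat.mul_le_mul_right m hle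
    have h3 : m * Nat.card (R : Subgroup H) < p * k * Nat.card (R : Subgroup H) :=
      Nat.mul_lt_mul_of_pos_right hmany Nat.card_pos
    nlinarith
  have hab : ∀ (r : ℕ) [Fact r.Prime] (R : Sylow r H), p < r → IsMulCommutative (R : Subgroup H) := by
    intro r _ R hpr
    by_contra hna
    have h1 := conjClasses_bound R.isPGroup' hna
    obtain ⟨r', rfl⟩ : ∃ r', r = r' + 1 := ⟨r - 1, by omega⟩
    rw [show (r' + 1) ^ 2 + (r' + 1) - 1 = (r' + 1) ^ 2 + r' by omega] at h1
    have h2 := Nat.mul_lt_mul_of_pos_right (hclass _ R)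
      (show 0 < (r' + 1) ^ 3 from pow_pos (by omega) _)
    have h3 := Nat.mul_le_mul_left p h1
    have h4 := Nat.mul_le_mul_right (Nat.card (R : Subgroup H) * ((r' + 1) ^ 2 + r'))
      (show p ≤ r' by omega)
    have h5 : Nat.card (R : Subgroup H) * (r' + 1) ^ 3 <
        Nat.card (R : Subgroup H) * (r' * ((r' + 1) ^ 2 + r')) := by nlinarith
    have := Nat.lt_of_mul_lt_mul_left h5
    nlinarith
  set N := (commutator (P : Subgroup H)).map (P : Subgroup H).subtype
  have hPn : (P : Subgroup H).Normal :=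
    ((Group.isNilpotent_of_finite_tfae (G := H)).out 0 3 rfl rfl).1 hHn p ⟨hπ p hp⟩ P
  haveI : N.Normal := by
    haveI := hPn
    exact ConjAct.normal_of_characteristic_of_normal
  have hle : commutator H ≤ N := by
    refine commutator_le_of_sylow hHn N fun r _ R x hx y hy => ?_
    rcases Nat.lt_trichotomy r p with hlt | heq | hgt
    · have hR1 : Nat.card (R : Subgroup H) = 1 := by
        rw [R.card_eq_multiplicity, Nat.factorization_eq_zero_of_not_dvd, pow_zero]
        intro hd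
        have := hmin r (hmπ r Fact.out (hHc ▸ hd))
        omega
      rw [Subgroup.card_eq_one] at hR1
      rw [hR1, Subgroup.mem_bot] at hx
      rw [hx]; simp
    · subst heq
      obtain ⟨g, rfl⟩ := MulAction.exists_smul_eq H P R
      haveI := hPn
      rw [Sylow.smul_eq_of_normal] at hx hy
      refine ⟨⁅(⟨x, hx⟩ : (P : Subgroup H)), ⟨y, hy⟩⁆, ?_, ?_⟩
      · exact Subgroup.commutator_mem_commutator (Subgroup.mem_top _) (Subgroup.mem_top _)
      · simp [commutatorElement_def]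
    · have h := congrArg Subtype.val ((hab r R hgt).is_comm.comm ⟨x, hx⟩ ⟨y, hy⟩)
      simp only [Subgroup.coe_mul] at h
      rw [h]; group; exact N.one_mem
  refine (Subgroup.card_le_of_le hle).trans ?_
  rw [Subgroup.card_map_of_injective (Subgroup.subtype_injective _)]
  exact card_commutator_le P.isPGroup' (hclass p P)

theorem abelian_hall_result (π : Set ℕ) (hπ : ∀ q ∈ π, q.Prime) (p : ℕ) (hp : p ∈ π) (hmin : ∀ q ∈ π, p ≤ q)
    (m : ℕ) (hm : m ∣ Nat.card G) (hmπ : ∀ q : ℕ, q.Prime → q ∣ m → q ∈ π)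
    (hm' : ∀ q ∈ π, ¬ q ∣ Nat.card G / m)
    (k : ℕ) (hk : k = Nat.card {C : ConjClasses G // ∀ q : ℕ, q.Prime → (∃ g : G, ConjClasses.mk g = C ∧ q ∣ orderOf g) → q ∈ π})
    (hmany : m * (p ^ 2 + p - 1) < p ^ 3 * k) :
    ∃ H : Subgroup G, Nat.card H = m ∧ IsMulCommutative H := by
  classical
  have hp2 := (hπ p hp).two_le
  obtain ⟨p', rfl⟩ : ∃ p', p = p' + 1 := ⟨p - 1, by omega⟩
  rw [show (p' + 1) ^ 2 + (p' + 1) - 1 = (p' + 1) ^ 2 + p' by omega] at hmany
  have hmany' : m < (p' + 1) * k := by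
    by_contra hle
    push Not at hle
    have := Nat.mul_le_mul_left ((p' + 1) ^ 2) hle
    nlinarith
  obtain ⟨H, hHc, hHn, hR⟩ := setup π hπ _ hp hmin m hm hmπ hm' k hk hmany'
  refine ⟨H, hHc, ?_⟩
  have hle : commutator H ≤ ⊥ := by
    refine commutator_le_of_sylow hHn ⊥ fun r _ R x hx y hy => ?_
    rw [Subgroup.mem_bot]
    by_cases hRab : IsMulCommutative (R : Subgroup H)
    · have h := congrArg Subtype.val (hRab.is_comm.comm ⟨x, hx⟩ ⟨y, hy⟩)
      simp only [Subgroup.coe_mul] at h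
      rw [h]; group
    exfalso
    have hpr : p' + 1 ≤ r := by
      by_contra hlt
      apply hRab
      have hR1 : Nat.card (R : Subgroup H) = 1 := by
        rw [R.card_eq_multiplicity, Nat.factorization_eq_zero_of_not_dvd, pow_zero]
        intro hd
        exact hlt (hmin r (hmπ r Fact.out (hHc ▸ hd)))
      haveI : Subsingleton (R : Subgroup H) := (Nat.card_eq_one_iff_unique.1 hR1).1
      exact ⟨⟨fun a b => Subsingleton.elim _ _⟩⟩
    have h1 := conjClasses_bound R.isPGroup' hRab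
    have hcb := comm_bound hp2 hpr
    obtain ⟨r', rfl⟩ : ∃ r', r = r' + 1 := ⟨r - 1, by omega⟩
    rw [show (r' + 1) ^ 2 + (r' + 1) - 1 = (r' + 1) ^ 2 + r' by omega] at h1
    set N := Nat.card (R : Subgroup H)
    have hN : 0 < N := Nat.card_pos
    have h2 : k * (r' + 1) ^ 3 ≤ ((r' + 1) ^ 2 + r') * m := by
      refine Nat.le_of_mul_le_mul_left ?_ hN
      calc N * (k * (r' + 1) ^ 3) = k * N * (r' + 1) ^ 3 := by ring
        _ ≤ Nat.card (ConjClasses (R : Subgroup H)) * m * (r' + 1) ^ 3 :=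
            Nat.mul_le_mul_right _ (hR _ R)
        _ = Nat.card (ConjClasses (R : Subgroup H)) * (r' + 1) ^ 3 * m := by ring
        _ ≤ N * ((r' + 1) ^ 2 + r') * m := Nat.mul_le_mul_right _ h1
        _ = _ := by ring
    have h3 := Nat.mul_le_mul_left ((p' + 1) ^ 3) h2
    have h4 := Nat.mul_lt_mul_of_pos_right hmany (show 0 < (r' + 1) ^ 3 from pow_pos (by omega) _)
    have h5 : (p' + 1) ^ 3 * ((r' + 1) ^ 2 + r') ≤ (r' + 1) ^ 3 * ((p' + 1) ^ 2 + p') := by nlinarith
    have h6 := Nat.mul_le_mul_right m h5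
    nlinarith
  refine ⟨⟨fun a b => ?_⟩⟩
  have h := hle (Subgroup.commutator_mem_commutator (Subgroup.mem_top a) (Subgroup.mem_top b))
  rw [Subgroup.mem_bot, commutatorElement_def, mul_inv_eq_one, mul_inv_eq_iff_eq_mul] at h
  exact h

end Cfsg.Agent.H6.PiClasses
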