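import Cfsg.Agent.H6.PiClasses.Part
import Cfsg.Agent.H19.WielandtHall

/-! A group with more than `|G|_π / p` classes of `π`-elements has a nilpotent Hall `π`-subgroup. -/

set_option autoImplicit false
open scoped Pointwise

namespace Cfsg.Agent.H6.PiClasses

universe u
variable {G : Type u} [Group G] [Finite G]

/-- The number of classes met by a subgroup. -/
noncomputable def classCount (P : Subgroup G) : ℕ :=
  (Set.range fun x : P => ConjClasses.mk (x : G)).ncard

theorem classCount_sylow_eq {q : ℕ} [Fact q.Prime] (P Q : Sylow q G) :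
    classCount (P : Subgroup G) = classCount (Q : Subgroup G) := by
  have key : ∀ P Q : Sylow q G, (Set.range fun x : (P : Subgroup G) => ConjClasses.mk (x : G)) ⊆
      Set.range fun x : (Q : Subgroup G) => ConjClasses.mk (x : G) := by
    rintro P Q _ ⟨x, rfl⟩
    obtain ⟨g, hg⟩ := MulAction.exists_smul_eq G P Q
    have hm : g * (x : G) * g⁻¹ ∈ (Q : Subgroup G) := by
      rw [← hg, Sylow.coe_subgroup_smul, H19.mem_conj_smul]
      simpa [mul_assoc] using x.2
    exact ⟨⟨_, hm⟩, ConjClasses.mk_eq_mk_iff_isConj.2 (isConj_iff.2 ⟨g⁻¹, by group⟩)⟩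
  rw [classCount, classCount, Set.Subset.antisymm (key P Q) (key Q P)]

theorem exists_reps (P : Subgroup G) :
    ∃ Y : Finset G, (∀ y ∈ Y, y ∈ P) ∧ (∀ x ∈ P, ∃ y ∈ Y, IsConj x y) ∧
      Y.card ≤ classCount P ∧ Set.InjOn (ConjClasses.mk : G → _) Y := by
  classical
  have := Fintype.ofFinite (ConjClasses G)
  have hc : ∀ c : Set.range (fun x : P => ConjClasses.mk (x : G)), ∃ x : P, ConjClasses.mk (x : G) = c :=
    fun c => c.2
  choose g hg using hc
  refine ⟨Finset.univ.image fun c => (g c : G), ?_, ?_, ?_, ?_⟩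
  · intro y hy
    obtain ⟨c, -, rfl⟩ := Finset.mem_image.1 hy
    exact (g c).2
  · intro x hx
    exact ⟨_, Finset.mem_image_of_mem _ (Finset.mem_univ ⟨_, ⟨x, hx⟩, rfl⟩),
      ConjClasses.mk_eq_mk_iff_isConj.1 (hg ⟨_, ⟨x, hx⟩, rfl⟩).symm⟩
  · refine Finset.card_image_le.trans (le_of_eq ?_)
    rw [Finset.card_univ, classCount, ← Nat.card_coe_set_eq, Nat.card_eq_fintype_card]
  · intro a ha b hb h
    simp only [Finset.coe_image, Finset.coe_univ, Set.image_univ, Set.mem_range] at ha hb
    obtain ⟨c, rfl⟩ := ha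
    obtain ⟨d, rfl⟩ := hb
    rw [hg, hg] at h
    rw [Subtype.ext h]

theorem sPart_insert {q : ℕ} {t : Finset ℕ} (hqt : q ∉ t) (X : Type*) [Group X] :
    sPart (insert q t) X = q ^ (Nat.card X).factorization q * sPart t X :=
  Finset.prod_insert hqt

theorem kcount_insert_le_classCount {r : ℕ} [Fact r.Prime] (t : Finset ℕ)
    (ht : ∀ i ∈ t, i.Prime) (R : Sylow r G) :
    kcount (insert r t) G ≤ classCount (R : Subgroup G) * sPart t G := by
  obtain ⟨Y, -, hY, hYc, -⟩ := exists_reps (R : Subgroup G)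
  refine (kcount_insert_le t R Y hY).trans ((Finset.sum_le_card_nsmul _ _ (sPart t G) fun y _ => ?_).trans ?_)
  · exact (kcount_le_sPart t ht).trans (Nat.le_of_dvd (sPart_pos ht G) (sPart_dvd _))
  · exact Nat.mul_le_mul_right _ hYc

theorem classCount_le_conjClasses (P : Subgroup G) :
    classCount P ≤ Nat.card (ConjClasses P) := by
  classical
  have : (Set.range fun x : P => ConjClasses.mk (x : G)) ⊆
      Set.range (fun c : ConjClasses P => Quotient.liftOn c (fun x => ConjClasses.mk (x : G))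
        (fun a b h => ConjClasses.mk_eq_mk_iff_isConj.2 (by
          obtain ⟨c, hc⟩ := isConj_iff.1 h
          exact isConj_iff.2 ⟨c, congrArg Subtype.val hc⟩))) := by
    rintro _ ⟨x, rfl⟩
    exact ⟨ConjClasses.mk x, rfl⟩
  refine (Set.ncard_le_ncard this (Set.toFinite _)).trans ?_
  rw [← Set.image_univ]
  exact (Set.ncard_image_le (Set.toFinite _)).trans (le_of_eq (Set.ncard_univ _))

theorem classCount_bound {q : ℕ} [Fact q.Prime] (P U : Subgroup G)
    (hU : U ≤ Subgroup.normalizer (P : Set G)) (n : ℕ) (hn : ∀ d : ℕ, d ∣ Nat.card U → d ≠ 1 → n ≤ d) :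
    n * classCount P + Nat.card ↥(P ⊓ Subgroup.centralizer (U : Set G)) ≤
      Nat.card P + n * Nat.card ↥(P ⊓ Subgroup.centralizer (U : Set G)) :=
  card_range_bound P U hU _ (fun x y u _ h => ConjClasses.mk_eq_mk_iff_isConj.2
    (isConj_iff.2 ⟨u, h⟩)) n hn

theorem sPart_eq_of_dvd_card {t : Finset ℕ} (ht : ∀ r ∈ t, r.Prime) (D : Subgroup G)
    (h : sPart t G ∣ Nat.card D) : sPart t D = sPart t G := by
  refine Nat.dvd_antisymm (sPart_dvd D) ?_
  refine (Nat.factorization_le_iff_dvd (sPart_pos ht G).ne' (sPart_pos ht D).ne').1 fun r => ?_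
  have h1 := (Nat.factorization_le_iff_dvd (sPart_pos ht G).ne' Nat.card_pos.ne').2 h r
  rw [factorization_sPart ht] at h1 ⊢
  rw [factorization_sPart ht]
  split <;> simp_all

theorem le_of_dvd_pow_ne_one {q d a : ℕ} (hq : q.Prime) (hd : d ∣ q ^ a) (h1 : d ≠ 1) : q ≤ d := by
  obtain ⟨i, -, rfl⟩ := (Nat.dvd_prime_pow hq).1 hd
  exact Nat.le_self_pow (fun h => h1 (by rw [h, pow_zero])) q

/-- The case of a Sylow `q`-subgroup central in its normalizer. -/
theorem complement_case {q : ℕ} [Fact q.Prime] (t : Finset ℕ) (ht : ∀ r ∈ t, r.Prime) (hqt : q ∉ t)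
    (P : Sylow q G) (hab : IsMulCommutative (P : Subgroup G))
    (hP : Subgroup.normalizer (P : Set G) ≤ Subgroup.centralizer (P : Set G))
    (H : Subgroup G) (hH : Nat.card H = sPart t G) (hHn : Group.IsNilpotent H)
    (p : ℕ) (hpq : p ≤ q) (hk : Nat.card (P : Subgroup G) * sPart t G < p * kcount (insert q t) G) :
    ∃ X : Subgroup G, Nat.card X = Nat.card (P : Subgroup G) * sPart t G ∧ Group.IsNilpotent X := by
  classical
  set M := sPart t G with hMdef
  set K := (MonoidHom.transferSylow P hP).ker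
  have hKP : K.IsComplement' (P : Subgroup G) := MonoidHom.ker_transferSylow_isComplement' P hP
  obtain ⟨a, ha⟩ := IsPGroup.iff_card.1 P.2
  have hKi : K.index = q ^ a := by rw [← ha]; exact hKP.symm.index_eq_card
  have hKc : ¬ q ∣ Nat.card K := by rw [← hKP.index_eq_card]; exact P.not_dvd_index
  have hMq : M.Coprime q := by
    refine (((Fact.out : q.Prime).coprime_iff_not_dvd).2 fun h => hqt ?_).symm
    exact mem_of_dvd_sPart ht Fact.out h
  have hle : ∀ L : Subgroup G, Nat.card L = M → L ≤ K := by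
    intro L hL x hx
    rw [← QuotientGroup.eq_one_iff (N := K)]
    refine orderOf_eq_one_iff.1 ?_
    have h1 : orderOf (x : G ⧸ K) ∣ M :=
      ((orderOf_map_dvd (QuotientGroup.mk' K) x).trans (Subgroup.orderOf_dvd_natCard _ hx)).trans
        (hL ▸ dvd_rfl)
    have h2 : orderOf (x : G ⧸ K) ∣ q ^ a := hKi ▸ orderOf_dvd_natCard _
    exact Nat.eq_one_of_dvd_coprimes (hMq.pow_right a) h1 h2
  have hHK := hle H hH
  -- Frattini
  set N := Subgroup.normalizer (H : Set G)
  have hKN : N ⊔ K = ⊤ := by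
    rw [eq_top_iff]
    intro g _
    set Hk := H.subgroupOf K
    have hHkc : Nat.card Hk = sPart t K := by
      rw [Nat.card_congr (Subgroup.subgroupOfEquivOfLe hHK).toEquiv, hH]
      exact (sPart_eq_of_dvd_card ht K (hMdef ▸ hH ▸ Subgroup.card_dvd_of_le hHK)).symm
    have hgH : Nat.card (MulAut.conj g • H : Subgroup G) = M := by rw [H19.card_conj_smul, hH]
    obtain ⟨k, hk'⟩ := exists_conj_le ht hHkc
      (Group.nilpotent_of_mulEquiv (Subgroup.subgroupOfEquivOfLe hHK).symm)
      ((MulAut.conj g • H).subgroupOf K) (fun r hr hd => by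
        rw [Nat.card_congr (Subgroup.subgroupOfEquivOfLe (hle _ hgH)).toEquiv, hgH] at hd
        exact mem_of_dvd_sPart ht hr hd)
    have hsub : MulAut.conj g • H ≤ MulAut.conj (k : G) • H := by
      intro x hx
      have := hk' (show (⟨x, hle _ hgH hx⟩ : K) ∈ (MulAut.conj g • H).subgroupOf K from hx)
      rw [H19.mem_conj_smul] at this ⊢
      exact this
    have heq := Subgroup.eq_of_le_of_card_ge hsub (by rw [H19.card_conj_smul, H19.card_conj_smul])
    have hkg : (k : G)⁻¹ * g ∈ N := by
      refine H20.mem_normalizer_of_conj_smul_eq ?_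
      rw [H19.conj_mul_smul, heq, ← H19.conj_mul_smul, inv_mul_cancel, map_one, one_smul]
    rw [show g = (k : G) * ((k : G)⁻¹ * g) by group]
    exact mul_mem ((le_sup_right : K ≤ N ⊔ K) k.2) ((le_sup_left : N ≤ N ⊔ K) hkg)
  have hNq : q ^ a ∣ Nat.card N := by
    rw [← hKi, ← Subgroup.relIndex_top_right, ← hKN, Subgroup.relIndex_sup_right]
    exact Subgroup.relIndex_dvd_card _ _
  obtain ⟨Q₀⟩ : Nonempty (Sylow q N) := inferInstance
  set Qs := (Q₀ : Subgroup N).map N.subtype
  have hGa : (Nat.card G).factorization q = a := by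
    have h := P.card_eq_multiplicity
    rw [ha] at h
    exact (Nat.pow_right_injective (Fact.out : q.Prime).two_le h).symm
  have hQsc : Nat.card Qs = q ^ a := by
    rw [H20.card_map_sylow Q₀]
    congr 1
    refine le_antisymm ?_ (((Fact.out : q.Prime).pow_dvd_iff_le_factorization Nat.card_pos.ne').1 hNq)
    rw [← hGa]
    exact (Nat.factorization_le_iff_dvd Nat.card_pos.ne' Nat.card_pos.ne').2
      (Subgroup.card_subgroup_dvd_card N) q
  let Q : Sylow q G := Sylow.ofCard Qs (by rw [hQsc, hGa])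
  have hQ : (Q : Subgroup G) = Qs := Sylow.coe_ofCard _ _
  have hQN : (Q : Subgroup G) ≤ N := hQ ▸ Subgroup.map_subtype_le _
  have hQc : Nat.card (Q : Subgroup G) = q ^ a := hQ ▸ hQsc
  have hQab : ∀ x ∈ (Q : Subgroup G), ∀ y ∈ (Q : Subgroup G), x * y = y * x := by
    obtain ⟨g, hg⟩ := MulAction.exists_smul_eq G P Q
    intro x hx y hy
    rw [← hg, Sylow.coe_subgroup_smul, H19.mem_conj_smul] at hx hy
    have h := congrArg Subtype.val (hab.is_comm.comm ⟨_, hx⟩ ⟨_, hy⟩)
    simp only [Subgroup.coe_mul] at h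
    calc x * y = g * ((g⁻¹ * x * g) * (g⁻¹ * y * g)) * g⁻¹ := by group
      _ = g * ((g⁻¹ * y * g) * (g⁻¹ * x * g)) * g⁻¹ := by rw [h]
      _ = y * x := by group
  by_cases hcent : H ≤ Subgroup.centralizer ((Q : Subgroup G) : Set G)
  · obtain ⟨X, hXc, hXn⟩ := sup_nilpotent hcent (by rw [hH, hQc]; exact hMq.pow_right a) hHn
      Q.isPGroup'.isNilpotent
    exact ⟨X, by rw [hXc, hH, hQc, ha, mul_comm], hXn⟩
  exfalso
  set F0 := (Q : Subgroup G) ⊓ Subgroup.centralizer (H : Set G)
  have hF0 : q * Nat.card F0 ≤ q ^ a := hQc ▸ mul_card_le_of_lt Q.isPGroup' inf_le_left (fun h =>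
    hcent (Subgroup.le_centralizer_iff.1 (h ▸ inf_le_right)))
  have hHQ : (Q : Subgroup G) ≤ Subgroup.normalizer (H : Set G) := hQN
  have hqH : ¬ q ∣ Nat.card H := fun h => hqt (mem_of_dvd_sPart (X := G) ht Fact.out (h.trans (dvd_of_eq hH)))
  have hF1 := fixed_card_bound H (Q : Subgroup G) Q.isPGroup' hHQ hqH hcent
  rw [hH] at hF1
  set F1 := Nat.card ↥(H ⊓ Subgroup.centralizer ((Q : Subgroup G) : Set G))
  have hterm : ∀ z ∈ (Q : Subgroup G), (q + 1) * kcount t (Subgroup.centralizer ({z} : Set G)) ≤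
      M + if z ∈ Subgroup.centralizer (H : Set G) then M else 0 := by
    intro z hz
    set C := Subgroup.centralizer ({z} : Set G)
    split
    · rename_i hzc
      have hHC : H ≤ C := fun h hh => Subgroup.mem_centralizer_singleton_iff.2
        (Subgroup.mem_centralizer_iff.1 hzc h hh)
      have hHs : Nat.card (H.subgroupOf C) = sPart t C := by
        rw [Nat.card_congr (Subgroup.subgroupOfEquivOfLe hHC).toEquiv, hH]
        exact (sPart_eq_of_dvd_card ht C (hMdef ▸ hH ▸ Subgroup.card_dvd_of_le hHC)).symm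
      let f : H → ConjClasses C := fun h => ConjClasses.mk ⟨h, hHC h.2⟩
      have hk1 : kcount t C ≤ (Set.range f).ncard := by
        rw [kcount, ← Nat.card_coe_set_eq]
        refine Nat.card_le_card_of_injective (fun c => ⟨c.1, ?_⟩)
          (fun x y h => Subtype.ext (Subtype.mk.inj h))
        obtain ⟨w, hw⟩ := ConjClasses.exists_rep c.1
        obtain ⟨x, hx⟩ := exists_conj_le ht hHs
          (Group.nilpotent_of_mulEquiv (Subgroup.subgroupOfEquivOfLe hHC).symm)
          (Subgroup.zpowers w) (fun r hr hd => c.2 w hw r hr (by rwa [Nat.card_zpowers] at hd))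
        have h1 := hx (Subgroup.mem_zpowers w)
        rw [H19.mem_conj_smul] at h1
        refine ⟨⟨((x⁻¹ * w * x : C) : G), h1⟩, ?_⟩
        rw [← hw]
        show ConjClasses.mk (x⁻¹ * w * x) = ConjClasses.mk w
        exact ConjClasses.mk_eq_mk_iff_isConj.2 (isConj_iff.2 ⟨x, by group⟩)
      have hb := card_range_bound H (Q : Subgroup G) hHQ f (fun x y u hu h =>
        ConjClasses.mk_eq_mk_iff_isConj.2 (isConj_iff.2 ⟨⟨u, Subgroup.mem_centralizer_singleton_iff.2
          (hQab u hu z hz)⟩, Subtype.ext h⟩)) q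
        (fun d hd => le_of_dvd_pow_ne_one Fact.out (hQc ▸ hd))
      rw [hH] at hb
      have hq2 := (Fact.out : q.Prime).two_le
      obtain ⟨q', rfl⟩ : ∃ q', q = q' + 1 := ⟨q - 1, by omega⟩
      have h2 : (q' + 1) * ((q' + 1 + 1) * (Set.range f).ncard) ≤ (q' + 1) * (M + M) := by
        have e1 := Nat.mul_le_mul_left (q' + 1 + 1) hb
        have e2 := Nat.mul_le_mul_left q' hF1
        nlinarith
      exact (Nat.mul_le_mul_left _ hk1).trans (Nat.le_of_mul_le_mul_left h2 (by omega))
    · rename_i hzc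
      obtain ⟨j, hj⟩ := H86.exists_orderOf_eq_pow_of_mem Q.isPGroup' hz
      have hd := sPart_centralizer_dvd ht K hKc ⟨a, hKi⟩ hqt H hH hHK hHn hj (hHQ hz)
      have hcz : Subgroup.centralizer ((Subgroup.zpowers z : Subgroup G) : Set G) = C := by
        rw [Subgroup.zpowers_eq_closure, Subgroup.centralizer_closure]
      have hb := fixed_card_bound H (Subgroup.zpowers z)
        (Q.isPGroup'.to_le (Subgroup.zpowers_le.2 hz)) (Subgroup.zpowers_le.2 (hHQ hz)) hqH
        (fun h => hzc (Subgroup.mem_centralizer_iff.2 fun x hx =>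
          Subgroup.mem_centralizer_singleton_iff.1 (hcz.le (h hx))))
      rw [hcz, hH] at hb
      rw [add_zero]
      exact (Nat.mul_le_mul_left _ ((kcount_le_sPart t ht).trans (Nat.le_of_dvd Nat.card_pos hd))).trans hb
  obtain ⟨Y, hYQ, hY, -, -⟩ := exists_reps (Q : Subgroup G)
  have hsum : (q + 1) * kcount (insert q t) G ≤ (q ^ a + Nat.card F0) * M := by
    refine (Nat.mul_le_mul_left _ (kcount_insert_le t Q Y hY)).trans ?_
    rw [Finset.mul_sum]
    refine (Finset.sum_le_sum fun y hy => hterm y (hYQ y hy)).trans ?_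
    rw [Finset.sum_add_distrib, ← Finset.sum_filter, Finset.sum_const, Finset.sum_const,
      smul_eq_mul, smul_eq_mul, add_mul]
    refine Nat.add_le_add (Nat.mul_le_mul_right _ ?_) (Nat.mul_le_mul_right _ ?_)
    · rw [← hQc, ← Nat.card_eq_finsetCard]
      exact Nat.card_le_card_of_injective (fun y : Y => (⟨y.1, hYQ y y.2⟩ : (Q : Subgroup G)))
        fun x y h => Subtype.ext (Subtype.mk.inj h)
    · rw [← Nat.card_eq_finsetCard]
      exact Nat.card_le_card_of_injective
        (fun y : Y.filter (· ∈ Subgroup.centralizer (H : Set G)) =>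
          (⟨y.1, hYQ y (Finset.mem_filter.1 y.2).1, (Finset.mem_filter.1 y.2).2⟩ : F0))
        fun x y h => Subtype.ext (Subtype.mk.inj h)
  rw [ha] at hk
  have h1 := Nat.mul_le_mul_left q hsum
  have h2 := Nat.mul_le_mul_right M hF0
  have h3 : q * kcount (insert q t) G * (q + 1) ≤ q ^ a * M * (q + 1) := by nlinarith
  have h4 := Nat.le_of_mul_le_mul_right h3 (by omega)
  have h5 := Nat.mul_le_mul_right (kcount (insert q t) G) hpq
  omega

/-- The statement for a set of primes, used inductively. -/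
def Claim (p : ℕ) (t : Finset ℕ) : Prop :=
  ∀ (X : Type u) [Group X] [Finite X], sPart t X < p * kcount t X →
    ∃ H : Subgroup X, Nat.card H = sPart t X ∧ Group.IsNilpotent H

/-- The inductive step. -/
theorem step {p q : ℕ} [Fact q.Prime] (hp : 2 ≤ p) (hpq : p < q) (hqG : q ∣ Nat.card G)
    (t : Finset ℕ) (ht : ∀ r ∈ t, r.Prime) (htp : ∀ r ∈ t, p ≤ r) (hqt : q ∉ t)
    (IH : Claim.{u} p t) (hk : sPart (insert q t) G < p * kcount (insert q t) G) :
    ∃ H : Subgroup G, Nat.card H = sPart (insert q t) G ∧ Group.IsNilpotent H := by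
  classical
  have hq := (Fact.out : q.Prime)
  set M := sPart t G with hMdef
  have hM : 0 < M := sPart_pos ht G
  obtain ⟨P⟩ : Nonempty (Sylow q G) := inferInstance
  set A := Nat.card (P : Subgroup G) with hAdef
  have hA : A = q ^ (Nat.card G).factorization q := P.card_eq_multiplicity
  rw [sPart_insert hqt, ← hA] at hk ⊢
  change A * M < p * _ at hk
  have hMA : M.Coprime A := by
    rw [hA]
    exact ((hq.coprime_iff_not_dvd).2 fun h => hqt (mem_of_dvd_sPart (X := G) ht hq h)).symm.pow_right _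
  have hsyl : ∀ Q : Sylow q G, Nat.card (Q : Subgroup G) = A := fun Q => by
    rw [hA]; exact Q.card_eq_multiplicity
  set n := classCount (P : Subgroup G)
  set k := kcount (insert q t) G
  -- the Sylow subgroup is abelian
  have hab : IsMulCommutative (P : Subgroup G) := by
    by_contra hna
    have h1 : k ≤ n * M := kcount_insert_le_classCount t ht P
    have h2 := (Nat.mul_le_mul_right (q ^ 3) (classCount_le_conjClasses (P : Subgroup G))).trans
      (conjClasses_bound P.isPGroup' hna)
    obtain ⟨q', rfl⟩ : ∃ q', q = q' + 1 := ⟨q - 1, by omega⟩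
    rw [show (q' + 1) ^ 2 + (q' + 1) - 1 = (q' + 1) ^ 2 + q' by omega, ← hAdef] at h2
    have h3 : A < p * n := by
      by_contra hle
      push Not at hle
      have := Nat.mul_le_mul_left p h1
      have := Nat.mul_le_mul_right M hle
      nlinarith
    have h4 := Nat.mul_le_mul_right (n * (q' + 1) ^ 3) (show p ≤ q' by omega)
    have h5 : A * (q' + 1) ^ 3 < p * n * (q' + 1) ^ 3 := Nat.mul_lt_mul_of_pos_right h3 (by positivity)
    have h6 : q' * (n * (q' + 1) ^ 3) ≤ q' * (A * ((q' + 1) ^ 2 + q')) := Nat.mul_le_mul_left _ h2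
    have : A * (q' + 1) ^ 3 < A * (q' * ((q' + 1) ^ 2 + q')) := by nlinarith
    have := Nat.lt_of_mul_lt_mul_left this
    nlinarith
  obtain ⟨Y, hYP, hY, hYc, hYinj⟩ := exists_reps (P : Subgroup G)
  have hsum := kcount_insert_le t P Y hY
  let T : G → ℕ := fun y => kcount t (Subgroup.centralizer ({y} : Set G))
  let good : G → Prop := fun y => M < p * T y
  -- good elements centralise nilpotent Hall subgroups for the smaller set
  have hgood : ∀ y, good y → ∃ H : Subgroup G, H ≤ Subgroup.centralizer ({y} : Set G) ∧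
      Nat.card H = M ∧ Group.IsNilpotent H ∧ sPart t (Subgroup.centralizer ({y} : Set G)) = M := by
    intro y hy
    set C := Subgroup.centralizer ({y} : Set G)
    have h1 : p * T y ≤ p * sPart t C := Nat.mul_le_mul_left _ (kcount_le_sPart t ht)
    have hC : sPart t C = M := eq_of_dvd_of_lt_mul ht htp (sPart_dvd C) (lt_of_lt_of_le hy h1)
    obtain ⟨H, hHc, hHn⟩ := IH C (by rw [hC]; exact hy)
    refine ⟨H.map C.subtype, Subgroup.map_subtype_le _, ?_,
      Group.nilpotent_of_mulEquiv (H.equivMapOfInjective _ C.subtype_injective), hC⟩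
    rw [Subgroup.card_map_of_injective C.subtype_injective, hHc, hC]
  obtain ⟨y₀, -, hy₀⟩ : ∃ y ∈ Y, good y := by
    by_contra hcon
    push Not at hcon
    have h1 : p * k ≤ Y.card * M := by
      refine (Nat.mul_le_mul_left p hsum).trans ?_
      rw [Finset.mul_sum]
      exact Finset.sum_le_card_nsmul _ _ _ fun y hy => Nat.le_of_not_lt (hcon y hy)
    have h2 : Y.card ≤ A := by
      rw [hAdef, ← Nat.card_eq_finsetCard]
      exact Nat.card_le_card_of_injective (fun y : Y => (⟨y.1, hYP y y.2⟩ : (P : Subgroup G)))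
        fun x y h => Subtype.ext (Subtype.mk.inj h)
    have := Nat.mul_le_mul_right M h2
    omega
  obtain ⟨H, -, hHc, hHn, -⟩ := hgood y₀ hy₀
  by_cases hNP : Subgroup.normalizer (P : Set G) ≤ Subgroup.centralizer (P : Set G)
  · exact complement_case t ht hqt P hab hNP H hHc hHn p hpq.le hk
  obtain ⟨u, huN, huC⟩ := SetLike.not_le_iff_exists.1 hNP
  -- the number of classes
  set F := Nat.card ↥((P : Subgroup G) ⊓ Subgroup.centralizer ((Subgroup.zpowers u : Subgroup G) : Set G))
  have hn2 : 2 * n + F ≤ A + 2 * F :=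
    classCount_bound (q := q) (P : Subgroup G) (Subgroup.zpowers u) (Subgroup.zpowers_le.2 huN) 2
      fun d hd h1 => by have := Nat.pos_of_dvd_of_pos hd Nat.card_pos; omega
  have hF : q * F ≤ A := mul_card_le_of_lt P.isPGroup' inf_le_left fun h => huC (by
    rw [Subgroup.mem_centralizer_iff]
    intro x hx
    have hx' : x ∈ (P : Subgroup G) ⊓ Subgroup.centralizer ((Subgroup.zpowers u : Subgroup G) : Set G) := by
      rw [h]; exact hx
    exact (Subgroup.mem_centralizer_iff.1 hx'.2 u (Subgroup.mem_zpowers u)).symm)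
  -- the good classes
  obtain ⟨Q₀⟩ : Nonempty (Sylow q (Subgroup.centralizer (H : Set G))) := inferInstance
  set Q' := (Q₀ : Subgroup (Subgroup.centralizer (H : Set G))).map (Subgroup.centralizer (H : Set G)).subtype
  have hQ'p : IsPGroup q Q' := H20.isPGroup_map_sylow Q₀
  obtain ⟨PQ, hPQ⟩ := hQ'p.exists_le_sylow
  by_cases hfull : Q' = (PQ : Subgroup G)
  · obtain ⟨X, hXc, hXn⟩ := sup_nilpotent (A := Q') (Subgroup.map_subtype_le _)
      (by rw [hfull, hsyl, hHc]; exact hMA.symm) hQ'p.isNilpotent hHn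
    exact ⟨X, by rw [hXc, hfull, hsyl, hHc], hXn⟩
  have hgb : q * (Y.filter good).card ≤ A := by
    refine le_trans (Nat.mul_le_mul_left q ?_) (hsyl PQ ▸ mul_card_le_of_lt PQ.isPGroup' hPQ hfull)
    have hmem : ∀ y ∈ Y.filter good, ∃ w : Q', ConjClasses.mk (w : G) = ConjClasses.mk y := by
      intro y hy
      obtain ⟨hyY, hyg⟩ := Finset.mem_filter.1 hy
      obtain ⟨H', hH'C, hH'c, -, -⟩ := hgood y hyg
      obtain ⟨x, hx⟩ := exists_conj_le ht hHc hHn H'
        (fun r hr hd => mem_of_dvd_sPart (X := G) ht hr (hd.trans (dvd_of_eq hH'c)))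
      have heq := Subgroup.eq_of_le_of_card_ge hx (by rw [H19.card_conj_smul, hHc, hH'c])
      set w := x⁻¹ * y * x
      have hwC : w ∈ Subgroup.centralizer (H : Set G) := by
        rw [Subgroup.mem_centralizer_iff]
        intro h hh
        have h' : x * h * x⁻¹ ∈ H' := by
          rw [heq, H19.mem_conj_smul]; simpa [mul_assoc] using hh
        have h1 := Subgroup.mem_centralizer_singleton_iff.1 (hH'C h')
        calc h * w = x⁻¹ * ((x * h * x⁻¹) * y) * x := by simp only [w]; group
          _ = _ := by rw [h1]; simp only [w]; group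
      obtain ⟨j, hj⟩ := H86.exists_orderOf_eq_pow_of_mem P.isPGroup' (hYP y hyY)
      have hwp : IsPGroup q (Subgroup.zpowers (⟨w, hwC⟩ : Subgroup.centralizer (H : Set G))) := by
        refine IsPGroup.of_card (n := j) ?_
        rw [Nat.card_zpowers, Subgroup.orderOf_mk, show w = MulAut.conj x⁻¹ y by simp [w],
          MulEquiv.orderOf_eq, hj]
      obtain ⟨S, hS⟩ := hwp.exists_le_sylow
      obtain ⟨c, hc⟩ := MulAction.exists_smul_eq (Subgroup.centralizer (H : Set G)) Q₀ S
      have h1 := hS (Subgroup.mem_zpowers _)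
      rw [← hc, Sylow.coe_subgroup_smul, H19.mem_conj_smul] at h1
      refine ⟨⟨_, ⟨_, h1, rfl⟩⟩, ConjClasses.mk_eq_mk_iff_isConj.2 (isConj_iff.2 ⟨x * c, ?_⟩)⟩
      simp only [w, Subgroup.coe_subtype, Subgroup.coe_mul, Subgroup.coe_inv]
      group
    choose w hw using hmem
    rw [← Nat.card_eq_finsetCard]
    refine Nat.card_le_card_of_injective (fun y => w y.1 y.2) fun a b hab' => Subtype.ext ?_
    refine hYinj (Finset.mem_filter.1 a.2).1 (Finset.mem_filter.1 b.2).1 ?_
    rw [← hw a.1 a.2, ← hw b.1 b.2]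
    exact congrArg (fun v : Q' => ConjClasses.mk (v : G)) hab'
  -- splitting the sum
  have hsplit : ∀ c : ℕ, (∀ y ∈ Y, good y → 2 * p * T y ≤ c * M) → 2 ≤ c →
      2 * p * k ≤ ((c - 2) * (Y.filter good).card + 2 * n) * M := by
    intro c hc hc2
    refine (Nat.mul_le_mul_left _ hsum).trans ?_
    rw [Finset.mul_sum]
    have hle : ∀ y ∈ Y, 2 * p * T y ≤ (if good y then (c - 2) * M else 0) + 2 * M := by
      intro y hy
      split
      · rename_i hg
        rw [← add_mul, Nat.sub_add_cancel hc2]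
        exact hc y hy hg
      · rename_i hg
        have : p * T y ≤ M := Nat.le_of_not_lt hg
        rw [mul_assoc, zero_add]; omega
    refine (Finset.sum_le_sum hle).trans ?_
    rw [Finset.sum_add_distrib, ← Finset.sum_filter, Finset.sum_const, Finset.sum_const,
      smul_eq_mul, smul_eq_mul]
    have := Nat.mul_le_mul_right (2 * M) hYc
    nlinarith
  by_cases hdelta : ∀ y ∈ Y, good y → 2 * p * T y ≤ (p + 1) * M
  · exfalso
    have h1 := hsplit (p + 1) hdelta (by omega)
    obtain ⟨p', rfl⟩ : ∃ p', p = p' + 1 := ⟨p - 1, by omega⟩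
    rw [show p' + 1 + 1 - 2 = p' by omega] at h1
    have e1 := Nat.mul_le_mul_left p' hgb
    have e2 : q * (2 * n) ≤ q * A + q * F := by nlinarith
    have e3 : q * (p' * (Y.filter good).card + 2 * n) ≤ q * (2 * A) := by
      have := Nat.mul_le_mul_right A (show p' + 1 ≤ q by omega)
      nlinarith
    have e4 := Nat.mul_le_mul_right M (Nat.le_of_mul_le_mul_left e3 hq.pos)
    nlinarith
  push Not at hdelta
  obtain ⟨y, hyY, hyg, hyd⟩ := hdelta
  obtain ⟨H', hH'C, hH'c, hH'n, hCM⟩ := hgood y hyg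
  set C := Subgroup.centralizer ({y} : Set G)
  -- all primes of `t` have normal complements in `C`
  have hcomp : ∀ r ∈ t, r.Prime ∧ Cfsg.HasNormalPComplement r C := by
    intro r hr
    haveI : Fact r.Prime := ⟨ht r hr⟩
    refine ⟨ht r hr, ?_⟩
    obtain ⟨R⟩ : Nonempty (Sylow r C) := inferInstance
    have hprod : r ^ (Nat.card C).factorization r * sPart (t.erase r) C = M := by
      rw [← sPart_insert (Finset.notMem_erase r t), Finset.insert_erase hr, hCM]
    have hbad : ∀ c : ℕ, c = classCount (R : Subgroup C) →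
        2 * r * c ≤ (r + 1) * Nat.card (R : Subgroup C) → False := by
      intro c hc hle
      have h1 := kcount_insert_le_classCount (t.erase r)
        (fun i hi => ht i (Finset.mem_of_mem_erase hi)) R
      rw [Finset.insert_erase hr, ← hc] at h1
      have hRM : Nat.card (R : Subgroup C) * sPart (t.erase r) C = M := by
        rw [R.card_eq_multiplicity]; exact hprod
      have h2 := Nat.mul_le_mul_left (2 * r) h1
      have h3 := Nat.mul_le_mul_right (sPart (t.erase r) C) hle
      have h4 : 2 * r * T y ≤ (r + 1) * M := by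
        calc 2 * r * T y ≤ 2 * r * (c * sPart (t.erase r) C) := h2
          _ = 2 * r * c * sPart (t.erase r) C := by ring
          _ ≤ _ := h3
          _ = (r + 1) * M := by rw [← hRM]; ring
      have hpr := htp r hr
      have h5 : r * (2 * p * T y) ≤ r * ((p + 1) * M) := by
        have e1 := Nat.mul_le_mul_left p h4
        have e2 := Nat.mul_le_mul_right M hpr
        nlinarith
      have := Nat.le_of_mul_le_mul_left h5 (ht r hr).pos
      omega
    by_cases hRab : IsMulCommutative (R : Subgroup C)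
    · by_cases hNR : Subgroup.normalizer (R : Set C) ≤ Subgroup.centralizer (R : Set C)
      · exact ⟨R, _, inferInstance, MonoidHom.ker_transferSylow_isComplement' R hNR⟩
      exfalso
      obtain ⟨v, hvN, hvC⟩ := SetLike.not_le_iff_exists.1 hNR
      have h2 := classCount_bound (q := r) (R : Subgroup C) (Subgroup.zpowers v)
        (Subgroup.zpowers_le.2 hvN) 2
        fun d hd h1 => by have := Nat.pos_of_dvd_of_pos hd Nat.card_pos; omega
      have h3 : r * Nat.card ↥((R : Subgroup C) ⊓
          Subgroup.centralizer ((Subgroup.zpowers v : Subgroup C) : Set C)) ≤ Nat.card (R : Subgroup C) :=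
        mul_card_le_of_lt R.isPGroup' inf_le_left fun h => hvC (by
          rw [Subgroup.mem_centralizer_iff]
          intro x hx
          have hx' : x ∈ (R : Subgroup C) ⊓ Subgroup.centralizer ((Subgroup.zpowers v : Subgroup C) : Set C) := by
            rw [h]; exact hx
          exact (Subgroup.mem_centralizer_iff.1 hx'.2 v (Subgroup.mem_zpowers v)).symm)
      refine hbad _ rfl ?_
      have := Nat.mul_le_mul_left r h2
      nlinarith
    · exfalso
      have h2 := conjClasses_bound R.isPGroup' hRab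
      have h3 := classCount_le_conjClasses (R : Subgroup C)
      obtain ⟨r', rfl⟩ : ∃ r', r = r' + 1 := ⟨r - 1, by have := (ht r hr).two_le; omega⟩
      rw [show (r' + 1) ^ 2 + (r' + 1) - 1 = (r' + 1) ^ 2 + r' by omega] at h2
      refine hbad _ rfl ?_
      set c := classCount (R : Subgroup C)
      set N := Nat.card (R : Subgroup C)
      have h4 := (Nat.mul_le_mul_right ((r' + 1) ^ 3) h3).trans h2
      have hr1 : 1 ≤ r' := by have := (ht _ hr).two_le; omega
      have h5 : (r' + 1) ^ 2 * (2 * (r' + 1) * c) ≤ (r' + 1) ^ 2 * ((r' + 1 + 1) * N) := by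
        have h6 : (2 : ℕ) * ((r' + 1) ^ 2 + r') ≤ (r' + 1) ^ 2 * (r' + 1 + 1) := by nlinarith
        have := Nat.mul_le_mul_right N h6
        nlinarith
      exact Nat.le_of_mul_le_mul_left h5 (by positivity)
  obtain ⟨T₁, hT₁, hTc, hTi⟩ := H19.exists_normal_of_pComplements t hcomp
  haveI := hT₁
  have hTM : T₁.index = M := by
    refine Nat.eq_of_factorization_eq Subgroup.index_ne_zero_of_finite hM.ne' fun r => ?_
    rw [← hCM, factorization_sPart ht, ← T₁.card_mul_index,
      Nat.factorization_mul Nat.card_pos.ne' Subgroup.index_ne_zero_of_finite, Finsupp.add_apply]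
    split
    · rename_i hr
      rw [Nat.factorization_eq_zero_of_not_dvd (hTc r hr), zero_add]
    · rename_i hr
      by_cases hrp : r.Prime
      · exact Nat.factorization_eq_zero_of_not_dvd fun h => hr (hTi r hrp h)
      · exact Nat.factorization_eq_zero_of_not_prime _ hrp
  obtain ⟨Q₁⟩ : Nonempty (Sylow q T₁) := inferInstance
  set Q₂ := (Q₁ : Subgroup T₁).map T₁.subtype
  set Q₃ := Q₂.map C.subtype
  have hQ₃c : Nat.card Q₃ = A := by
    rw [Subgroup.card_map_of_injective C.subtype_injective, H20.card_map_sylow Q₁, hA]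
    congr 1
    refine le_antisymm ((Nat.factorization_le_iff_dvd Nat.card_pos.ne' Nat.card_pos.ne').2
      ((Subgroup.card_subgroup_dvd_card T₁).trans (Subgroup.card_subgroup_dvd_card C)) q) ?_
    refine (hq.pow_dvd_iff_le_factorization Nat.card_pos.ne').1 ?_
    have hPC : (P : Subgroup G) ≤ C := fun x hx => Subgroup.mem_centralizer_singleton_iff.2
      (congrArg Subtype.val (hab.is_comm.comm (⟨x, hx⟩ : (P : Subgroup G)) ⟨y, hYP y hyY⟩))
    have h1 : A ∣ Nat.card T₁ * M := by
      rw [← hTM, T₁.card_mul_index]; exact Subgroup.card_dvd_of_le hPC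
    rw [← hA]
    exact (hMA.symm).dvd_of_dvd_mul_right h1
  have hsup := Sylow.normalizer_sup_eq_top Q₁
  set N := Subgroup.normalizer (Q₂ : Set C)
  haveI : (T₁.subgroupOf N).Normal := Subgroup.normal_subgroupOf
  have hTN : (T₁.subgroupOf N).index = M := by
    show T₁.relIndex N = M
    rw [← Subgroup.relIndex_sup_right, hsup, Subgroup.relIndex_top_right, hTM]
  obtain ⟨L, hL⟩ := Subgroup.exists_right_complement'_of_coprime (N := T₁.subgroupOf N) (by
    rw [hTN]
    refine Nat.coprime_of_dvd fun r hr h1 h2 => hTc r (mem_of_dvd_sPart (X := G) ht hr h2) ?_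
    refine h1.trans ?_
    rw [← Subgroup.card_map_of_injective N.subtype_injective, Subgroup.subgroupOf_map_subtype]
    exact Subgroup.card_dvd_of_le inf_le_left)
  set L' := (L.map N.subtype).map C.subtype
  have hL'c : Nat.card L' = M := by
    rw [Subgroup.card_map_of_injective C.subtype_injective,
      Subgroup.card_map_of_injective N.subtype_injective, ← hL.symm.index_eq_card, hTN]
  have hL'n : Group.IsNilpotent L' := H33.isNilpotent_of_nilpotent_hall hHn (hall_of_card ht hHc)
    (by rw [hL'c, hHc]; exact fun r _ h => h)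
  have hL'N : L' ≤ Subgroup.normalizer (Q₃ : Set G) :=
    (Subgroup.map_mono (Subgroup.map_subtype_le _)).trans (Subgroup.le_normalizer_map _)
  by_cases hcent : L' ≤ Subgroup.centralizer (Q₃ : Set G)
  · obtain ⟨X, hXc, hXn⟩ := sup_nilpotent hcent (by rw [hL'c, hQ₃c]; exact hMA) hL'n
      (((H20.isPGroup_map_sylow Q₁).map C.subtype).isNilpotent)
    exact ⟨X, by rw [hXc, hL'c, hQ₃c, mul_comm], hXn⟩
  exfalso
  let PS : Sylow q G := Sylow.ofCard Q₃ (by rw [hQ₃c, hA])
  have hPS : (PS : Subgroup G) = Q₃ := Sylow.coe_ofCard _ _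
  have hb := classCount_bound (q := q) Q₃ L' hL'N p (by
    intro d hd h1
    rw [hL'c] at hd
    obtain ⟨r, hr, hrd⟩ := Nat.exists_prime_and_dvd h1
    exact (htp r (mem_of_dvd_sPart (X := G) ht hr (hrd.trans hd))).trans
      (Nat.le_of_dvd (Nat.pos_of_dvd_of_pos hd hM) hrd))
  have hn : classCount Q₃ = n := by rw [← hPS]; exact classCount_sylow_eq PS P
  rw [hn, hQ₃c] at hb
  set F' := Nat.card ↥(Q₃ ⊓ Subgroup.centralizer (L' : Set G))
  have hF' : q * F' ≤ A := hQ₃c ▸ mul_card_le_of_lt ((H20.isPGroup_map_sylow Q₁).map C.subtype)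
    inf_le_left (fun h => hcent (Subgroup.le_centralizer_iff.1 (h ▸ inf_le_right)))
  have h1 := hsplit (2 * p) (fun y hy _ => Nat.mul_le_mul_left _ ((kcount_le_sPart t ht).trans
    (Nat.le_of_dvd hM (sPart_dvd _)))) (by omega)
  obtain ⟨p', rfl⟩ : ∃ p', p = p' + 1 := ⟨p - 1, by omega⟩
  rw [show 2 * (p' + 1) - 2 = 2 * p' by omega] at h1
  obtain ⟨e, rfl⟩ : ∃ e, q = p' + 2 + e := ⟨q - (p' + 2), by omega⟩
  set g := (Y.filter good).card
  have e1 := Nat.mul_le_mul_left (p' * (p' + 1)) hgb
  have e2 := Nat.mul_le_mul_left (p' + 2 + e) hb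
  have e3 := Nat.mul_le_mul_left p' hF'
  have e2' : (p' + 1) * (p' + 2 + e) * n ≤ (p' + 2 + e) * A + p' * A := by
    simp only [mul_add, add_mul, mul_one, one_mul, mul_assoc, mul_comm, mul_left_comm] at e2 e3 ⊢
    omega
  have e4 : (p' + 2 + e) * A + p' * A + p' * (p' + 1) * A ≤ (p' + 1) * (p' + 2 + e) * A := by
    have : (p' + 1) * (p' + 2 + e) * A = (p' + 2 + e) * A + p' * A + p' * (p' + 1) * A + p' * e * A := by
      ring
    omega
  have e1' : (p' + 1) * (p' + 2 + e) * (p' * g) ≤ p' * (p' + 1) * A := by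
    calc (p' + 1) * (p' + 2 + e) * (p' * g) = p' * (p' + 1) * ((p' + 2 + e) * g) := by ring
      _ ≤ _ := e1
  have e5 : (p' + 1) * (p' + 2 + e) * (2 * p' * g + 2 * n) ≤ (p' + 1) * (p' + 2 + e) * (2 * A) := by
    calc (p' + 1) * (p' + 2 + e) * (2 * p' * g + 2 * n)
        = 2 * ((p' + 1) * (p' + 2 + e) * (p' * g)) + 2 * ((p' + 1) * (p' + 2 + e) * n) := by ring
      _ ≤ 2 * (p' * (p' + 1) * A) + 2 * ((p' + 2 + e) * A + p' * A) := by omega
      _ ≤ 2 * ((p' + 1) * (p' + 2 + e) * A) := by omega
      _ = _ := by ring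
  have e6 := Nat.mul_le_mul_right M (Nat.le_of_mul_le_mul_left e5 (by positivity))
  nlinarith

theorem exists_nilpotent_hall (s : Finset ℕ) : (∀ r ∈ s, r.Prime) → ∀ p, 2 ≤ p →
    (∀ r ∈ s, p ≤ r) → Claim.{u} p s := by
  classical
  induction s using Finset.strongInduction with
  | _ s ih =>
    intro hs p hp hps X _ _ hk
    rcases s.eq_empty_or_nonempty with rfl | hne
    · exact ⟨⊥, by simp [sPart], inferInstance⟩
    set q := s.max' hne
    have hqs : q ∈ s := s.max'_mem hne
    haveI : Fact q.Prime := ⟨hs q hqs⟩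
    set t := s.erase q with htdef
    have hst : insert q t = s := Finset.insert_erase hqs
    have ht : ∀ r ∈ t, r.Prime := fun r hr => hs r (Finset.mem_of_mem_erase hr)
    have htp : ∀ r ∈ t, p ≤ r := fun r hr => hps r (Finset.mem_of_mem_erase hr)
    have hqt : q ∉ t := Finset.notMem_erase q s
    have IH : Claim.{u} p t := ih t (Finset.erase_ssubset hqs) ht p hp htp
    rw [← hst] at hk ⊢
    by_cases hqG : q ∣ Nat.card X
    · by_cases h1 : sPart t X = 1
      · obtain ⟨P⟩ : Nonempty (Sylow q X) := inferInstance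
        exact ⟨P, by rw [sPart_insert hqt, h1, mul_one]; exact P.card_eq_multiplicity,
          P.isPGroup'.isNilpotent⟩
      · obtain ⟨r, hr, hd⟩ := Nat.exists_prime_and_dvd h1
        have hrt := mem_of_dvd_sPart ht hr hd
        have hlt : r < q := lt_of_le_of_ne (s.le_max' r (Finset.mem_of_mem_erase hrt))
          fun h => hqt (h ▸ hrt)
        exact step hp (lt_of_le_of_lt (htp r hrt) hlt) hqG t ht htp hqt IH hk
    · have h1 : sPart (insert q t) X = sPart t X := by
        rw [sPart_insert hqt, Nat.factorization_eq_zero_of_not_dvd hqG, pow_zero, one_mul]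
      rw [h1] at hk ⊢
      refine IH X (lt_of_lt_of_le hk (Nat.mul_le_mul_left p ?_))
      refine Nat.card_le_card_of_injective (fun c => ⟨c.1, fun g hg r hr hd => ?_⟩)
        (fun x y h => Subtype.ext (Subtype.mk.inj h))
      rcases Finset.mem_insert.1 (c.2 g hg r hr hd) with rfl | h
      · exact absurd (hd.trans (orderOf_dvd_natCard g)) hqG
      · exact h

end Cfsg.Agent.H6.PiClasses
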