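import Cfsg.Agent.H6.PiClasses.Basic
import Cfsg.Agent.H20.Sylow

/-! The `s`-part of the order, nilpotent Hall subgroups and the coprime fixed point count. -/

set_option autoImplicit false
open scoped Pointwise

namespace Cfsg.Agent.H6.PiClasses

universe u
variable {G : Type u} [Group G] [Finite G]

theorem sPart_pos {s : Finset ℕ} (hs : ∀ r ∈ s, r.Prime) (X : Type*) [Group X] :
    0 < sPart s X :=
  Finset.prod_pos fun r hr => pow_pos (hs r hr).pos _

theorem factorization_sPart {s : Finset ℕ} (hs : ∀ r ∈ s, r.Prime) (X : Type*) [Group X] (r : ℕ) :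
    (sPart s X).factorization r = if r ∈ s then (Nat.card X).factorization r else 0 := by
  rw [sPart, Nat.factorization_prod fun i hi => (pow_pos (hs i hi).pos _).ne', Finsupp.finsetSum_apply]
  rw [Finset.sum_congr rfl fun i hi => by
    rw [Nat.Prime.factorization_pow (hs i hi), Finsupp.single_apply]]
  exact Finset.sum_ite_eq' s r _

theorem sPart_dvd_card {s : Finset ℕ} (hs : ∀ r ∈ s, r.Prime) :
    sPart s G ∣ Nat.card G := by
  refine (Nat.factorization_le_iff_dvd (sPart_pos hs G).ne' Nat.card_pos.ne').1 fun r => ?_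
  rw [factorization_sPart hs]
  split <;> omega

theorem sPart_dvd {s : Finset ℕ} (D : Subgroup G) : sPart s D ∣ sPart s G :=
  Finset.prod_dvd_prod_of_dvd _ _ fun r _ => pow_dvd_pow r
    ((Nat.factorization_le_iff_dvd Nat.card_pos.ne' Nat.card_pos.ne').2
      (Subgroup.card_subgroup_dvd_card D) r)

theorem mem_of_dvd_sPart {s : Finset ℕ} (hs : ∀ r ∈ s, r.Prime) {X : Type*} [Group X] {r : ℕ}
    (hr : r.Prime) (h : r ∣ sPart s X) : r ∈ s := by
  have h1 := hr.factorization_pos_of_dvd (sPart_pos hs X).ne' h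
  rw [factorization_sPart hs] at h1
  by_contra hn
  rw [if_neg hn] at h1
  omega

theorem dvd_sPart {s : Finset ℕ} (hs : ∀ r ∈ s, r.Prime) {r : ℕ} (hr : r ∈ s)
    (h : r ∣ Nat.card G) : r ∣ sPart s G := by
  refine (Nat.Prime.dvd_iff_one_le_factorization (hs r hr) (sPart_pos hs G).ne').2 ?_
  rw [factorization_sPart hs, if_pos hr]
  exact (hs r hr).factorization_pos_of_dvd Nat.card_pos.ne' h

theorem eq_of_dvd_of_lt_mul {s : Finset ℕ} (hs : ∀ r ∈ s, r.Prime) {p : ℕ}
    (hps : ∀ r ∈ s, p ≤ r) {X : Type*} [Group X] {c : ℕ} (hc : c ∣ sPart s X)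
    (h : sPart s X < p * c) : c = sPart s X := by
  obtain ⟨d, hd⟩ := hc
  by_contra hne
  have hd1 : d ≠ 1 := fun h1 => hne (by rw [hd, h1, mul_one])
  obtain ⟨r, hr, hrd⟩ := Nat.exists_prime_and_dvd hd1
  have h1 := hps r (mem_of_dvd_sPart (X := X) hs hr (hd ▸ hrd.mul_left c))
  have hd0 : 0 < d := Nat.pos_of_ne_zero fun h0 => (sPart_pos hs X).ne' (by rw [hd, h0, mul_zero])
  have h2 := Nat.le_of_dvd hd0 hrd
  rw [hd, mul_comm p c] at h
  exact absurd (Nat.lt_of_mul_lt_mul_left h) (by omega)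

theorem hall_of_card {s : Finset ℕ} (hs : ∀ r ∈ s, r.Prime) {H : Subgroup G}
    (hH : Nat.card H = sPart s G) : (Nat.card H).Coprime H.index := by
  refine Nat.coprime_of_dvd fun r hr h1 h2 => ?_
  rw [hH] at h1
  have hrs := mem_of_dvd_sPart hs hr h1
  have h3 : (Nat.card G).factorization r = (Nat.card H).factorization r + H.index.factorization r := by
    rw [← H.card_mul_index, Nat.factorization_mul Nat.card_pos.ne' Subgroup.index_ne_zero_of_finite]
    rfl
  have h4 := hr.factorization_pos_of_dvd Subgroup.index_ne_zero_of_finite h2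
  rw [hH, factorization_sPart hs, if_pos hrs] at h3
  omega

/-- Wielandt, for a nilpotent subgroup whose order is the `s`-part. -/
theorem exists_conj_le {s : Finset ℕ} (hs : ∀ r ∈ s, r.Prime) {H : Subgroup G}
    (hH : Nat.card H = sPart s G) (hn : Group.IsNilpotent H) (K : Subgroup G)
    (hK : ∀ r : ℕ, r.Prime → r ∣ Nat.card K → r ∈ s) : ∃ x : G, K ≤ MulAut.conj x • H :=
  H33.exists_conj_of_nilpotent_hall _ H K hn (hall_of_card hs hH)
    (fun r hr hd => hH ▸ dvd_sPart hs (hK r hr hd) (hd.trans (Subgroup.card_subgroup_dvd_card K))) rfl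

/-- Two commuting nilpotent subgroups of coprime orders. -/
theorem sup_nilpotent {A B : Subgroup G} (hc : A ≤ Subgroup.centralizer (B : Set G))
    (hco : (Nat.card A).Coprime (Nat.card B)) (hA : Group.IsNilpotent A) (hB : Group.IsNilpotent B) :
    ∃ H : Subgroup G, Nat.card H = Nat.card A * Nat.card B ∧ Group.IsNilpotent H := by
  have hcomm : ∀ (a : A) (b : B), Commute (A.subtype a) (B.subtype b) := fun a b =>
    (Subgroup.mem_centralizer_iff.1 (hc a.2) b b.2).symm
  let f : A × B →* G := A.subtype.noncommCoprod B.subtype hcomm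
  have hf : Function.Injective f := by
    rintro ⟨a, b⟩ ⟨a', b'⟩ h
    have h' : (a : G) * b = a' * b' := h
    have h2 : ((a'⁻¹ * a : A) : G) ∈ A ⊓ B := by
      refine ⟨SetLike.coe_mem _, ?_⟩
      have : ((a'⁻¹ * a : A) : G) = ((b' * b⁻¹ : B) : G) := by
        push_cast
        calc (a' : G)⁻¹ * a = (a' : G)⁻¹ * ((a : G) * b) * (b : G)⁻¹ := by group
          _ = _ := by rw [h']; group
      rw [this]
      exact SetLike.coe_mem _
    rw [Subgroup.inf_eq_bot_of_coprime hco, Subgroup.mem_bot] at h2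
    have ha : a = a' := (inv_mul_eq_one.1 (Subtype.ext h2)).symm
    subst ha
    exact Prod.ext rfl (Subtype.ext (mul_left_cancel h'))
  refine ⟨f.range, ?_, Group.nilpotent_of_mulEquiv (MonoidHom.ofInjective hf)⟩
  rw [← Nat.card_congr (MonoidHom.ofInjective hf).toEquiv, Nat.card_prod]

/-- A proper subgroup of a `q`-group has index at least `q`. -/
theorem mul_card_le_of_lt {q : ℕ} [Fact q.Prime] {A B : Subgroup G} (hA : IsPGroup q A)
    (hBA : B ≤ A) (hne : B ≠ A) : q * Nat.card B ≤ Nat.card A := by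
  obtain ⟨a, ha⟩ := IsPGroup.iff_card.1 hA
  obtain ⟨b, hb⟩ := IsPGroup.iff_card.1 (hA.to_le hBA)
  have hlt : Nat.card B < Nat.card A := by
    refine lt_of_le_of_ne (Subgroup.card_le_of_le hBA) fun h => hne ?_
    exact Subgroup.eq_of_le_of_card_ge hBA h.ge
  rw [ha, hb] at hlt ⊢
  have hab := (Nat.pow_lt_pow_iff_right (Fact.out : q.Prime).one_lt).1 hlt
  calc q * q ^ b = q ^ (b + 1) := by ring
    _ ≤ _ := Nat.pow_le_pow_right (Fact.out : q.Prime).pos hab

/-- Fixed points of a `q`-group acting nontrivially on a `q'`-group. -/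
theorem fixed_card_bound {q : ℕ} [Fact q.Prime] (H U : Subgroup G) (hU : IsPGroup q U)
    (hUH : U ≤ Subgroup.normalizer (H : Set G)) (hq : ¬ q ∣ Nat.card H)
    (hne : ¬ H ≤ Subgroup.centralizer (U : Set G)) :
    (q + 1) * Nat.card ↥(H ⊓ Subgroup.centralizer (U : Set G)) ≤ Nat.card H := by
  letI : MulAction U H :=
    MulAction.compHom H ((Subgroup.normalizerMonoidHom H).comp (Subgroup.inclusion hUH))
  have hfix : Nat.card (MulAction.fixedPoints U H) =
      Nat.card ↥(H ⊓ Subgroup.centralizer (U : Set G)) := by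
    refine Nat.card_congr
      { toFun := fun x => ⟨x.1, x.1.2, ?_⟩
        invFun := fun x => ⟨⟨x, x.2.1⟩, ?_⟩
        left_inv := fun x => rfl
        right_inv := fun x => rfl }
    · show ((x.1 : H) : G) ∈ Subgroup.centralizer (U : Set G)
      rw [Subgroup.mem_centralizer_iff]
      intro u hu
      have h : (u : G) * (x.1 : H) * u⁻¹ = (x.1 : H) := congrArg Subtype.val (x.2 ⟨u, hu⟩)
      exact mul_inv_eq_iff_eq_mul.1 h
    · intro u
      apply Subtype.ext
      show (u : G) * x * (u : G)⁻¹ = x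
      exact mul_inv_eq_iff_eq_mul.2 (Subgroup.mem_centralizer_iff.1 x.2.2 u u.2)
  have hmod := hU.card_modEq_card_fixedPoints H
  rw [hfix] at hmod
  set F := Nat.card ↥(H ⊓ Subgroup.centralizer (U : Set G))
  obtain ⟨i, hi⟩ := Subgroup.card_dvd_of_le (inf_le_left : H ⊓ Subgroup.centralizer (U : Set G) ≤ H)
  have hi0 : i ≠ 0 := fun h => (Nat.card_pos (α := H)).ne' (by rw [hi, h, mul_zero])
  have hi1 : i ≠ 1 := fun h => hne (by
    have := Subgroup.eq_of_le_of_card_ge (inf_le_left : H ⊓ Subgroup.centralizer (U : Set G) ≤ H)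
      (by rw [hi, h, mul_one])
    rw [← this]; exact inf_le_right)
  have hdvd : q ∣ F * (i - 1) := by
    have := (Nat.modEq_iff_dvd' (by rw [hi]; exact Nat.le_mul_of_pos_right _ (by omega))).1 hmod.symm
    rwa [hi, ← Nat.mul_sub_one] at this
  rcases (Fact.out : q.Prime).dvd_mul.1 hdvd with h | h
  · exact absurd (hi ▸ h.mul_right i) hq
  · have := Nat.le_of_dvd (by omega) h
    rw [hi, mul_comm F i]
    exact Nat.mul_le_mul_right _ (by omega)

/-- In a coprime action, `C_H(z)` is Hall in `C(z)`: order form. -/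
theorem sPart_centralizer_dvd {q : ℕ} [Fact q.Prime] {t : Finset ℕ} (ht : ∀ r ∈ t, r.Prime)
    (K : Subgroup G) [K.Normal] (hKc : ¬ q ∣ Nat.card K) (hKi : ∃ a, K.index = q ^ a)
    (hqt : q ∉ t) (H : Subgroup G) (hH : Nat.card H = sPart t G) (hHK : H ≤ K)
    (hHn : Group.IsNilpotent H) {z : G} {j : ℕ} (hz : orderOf z = q ^ j)
    (hzH : z ∈ Subgroup.normalizer (H : Set G)) :
    sPart t (Subgroup.centralizer ({z} : Set G)) ∣
      Nat.card ↥(H ⊓ Subgroup.centralizer ({z} : Set G)) := by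
  classical
  set C := Subgroup.centralizer ({z} : Set G)
  refine (Nat.factorization_le_iff_dvd (sPart_pos ht _).ne' Nat.card_pos.ne').1 fun r => ?_
  rw [factorization_sPart ht]
  split
  swap
  · exact Nat.zero_le _
  rename_i hr
  refine ((ht r hr).pow_dvd_iff_le_factorization Nat.card_pos.ne').1 ?_
  haveI : Fact r.Prime := ⟨ht r hr⟩
  obtain ⟨S⟩ : Nonempty (Sylow r C) := inferInstance
  set S' := (S : Subgroup C).map C.subtype
  have hS'c : Nat.card S' = r ^ (Nat.card C).factorization r := H20.card_map_sylow S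
  have hS'p : IsPGroup r S' := H20.isPGroup_map_sylow S
  have hrq : r ≠ q := fun h => hqt (h ▸ hr)
  have hAcard : Nat.card (Subgroup.zpowers z) = q ^ j := by rw [Nat.card_zpowers, hz]
  have hS'K : S' ≤ K := by
    intro x hx
    obtain ⟨k, hk⟩ := H86.exists_orderOf_eq_pow_of_mem hS'p hx
    obtain ⟨a, ha⟩ := hKi
    rw [← QuotientGroup.eq_one_iff (N := K)]
    refine orderOf_eq_one_iff.1 (Nat.dvd_one.1 ?_)
    have h1 : orderOf (x : G ⧸ K) ∣ r ^ k := hk ▸ orderOf_map_dvd (QuotientGroup.mk' K) x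
    have h2 : orderOf (x : G ⧸ K) ∣ q ^ a := ha ▸ orderOf_dvd_natCard _
    exact (Nat.eq_one_of_dvd_coprimes (((Nat.coprime_primes (ht r hr) Fact.out).2 hrq).pow k a) h1 h2) ▸ dvd_rfl
  have hAK : Subgroup.zpowers z ≤ Subgroup.normalizer (K : Set G) :=
    le_of_le_of_eq le_top (Subgroup.normalizer_eq_top K).symm
  have hcop : (Nat.card (Subgroup.zpowers z)).Coprime (Nat.card K) := by
    rw [hAcard]; exact Nat.Coprime.pow_left _ ((Fact.out : q.Prime).coprime_iff_not_dvd.2 hKc)
  have hsolv : Group.IsSolvable (Subgroup.zpowers z) ∨ Group.IsSolvable K := Or.inl inferInstance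
  have hS'A : Subgroup.zpowers z ≤ Subgroup.normalizer (S' : Set G) := by
    rw [Subgroup.zpowers_le]
    refine Subgroup.centralizer_le_normalizer _ (Subgroup.mem_centralizer_iff.2 ?_)
    rintro _ ⟨s, hs, rfl⟩
    exact Subgroup.mem_centralizer_singleton_iff.1 s.2
  obtain ⟨P, hSP, hPA⟩ := H20.exists_invariant_sylow_ge hAK hcop hsolv r hS'K hS'p hS'A
  set R := H33.pPart r H
  have hRc : Nat.card R = r ^ (Nat.card K).factorization r := by
    rw [H33.card_pPart hHn, hH, factorization_sPart ht, if_pos hr]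
    congr 1
    obtain ⟨a, ha⟩ := hKi
    rw [← K.card_mul_index, Nat.factorization_mul Nat.card_pos.ne' Subgroup.index_ne_zero_of_finite,
      Finsupp.add_apply, ha, Nat.Prime.factorization_pow Fact.out, Finsupp.single_apply,
      if_neg (Ne.symm hrq), add_zero]
  have hRA : Subgroup.zpowers z ≤ Subgroup.normalizer (R : Set G) := by
    rw [Subgroup.zpowers_le]
    exact H33.normalizer_le_normalizer_pPart r H hzH
  obtain ⟨c, hc, hcR⟩ := H20.invariant_sylow_subgroup_conj hAK hcop hsolv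
    ((H33.pPart_le r H).trans hHK) (Subgroup.map_subtype_le _) hRc (H20.card_map_sylow P) hRA hPA
  have hle : MulAut.conj c⁻¹ • S' ≤ H ⊓ C := by
    intro x hx
    rw [H19.mem_conj_smul] at hx
    have hx1 : c * x * c⁻¹ ∈ S' := by simpa using hx
    refine ⟨H33.pPart_le r H ?_, ?_⟩
    · have h1 := hSP hx1
      rw [← hcR, H19.mem_conj_smul] at h1
      simpa [mul_assoc] using h1
    · have hxC : c * x * c⁻¹ ∈ C := Subgroup.map_subtype_le _ hx1
      have hcC : c ∈ C := by
        rw [Subgroup.mem_centralizer_singleton_iff]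
        exact (Subgroup.mem_centralizer_iff.1 hc.2 z (Subgroup.mem_zpowers z)).symm
      simpa [mul_assoc] using C.mul_mem (C.mul_mem (C.inv_mem hcC) hxC) hcC
  rw [← hS'c, ← H19.card_conj_smul c⁻¹ S']
  exact Subgroup.card_dvd_of_le hle

end Cfsg.Agent.H6.PiClasses
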